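import Cfsg.Agent.H93.SpC.Par

set_option autoImplicit false
set_option linter.unusedSectionVars false

/-!
The slim amalgam of the symplectic group.
-/

namespace Cfsg.Agent.H93.SpC

open Matrix Subgroup
open Cfsg.Agent.ClassSp Cfsg.Agent.Stb
open scoped commutatorElement

attribute [local instance] sumNeg

variable {F : Type*} [Field F]

/-- vectors fixed by the plane group -/
def SS {n : ℕ} (j : Fin n) : Set (Fin n ⊕ Fin n) := {p | p ≠ Sum.inl j ∧ p ≠ Sum.inr j}

/-- vectors fixed by the abelian group -/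
def MS (n i : ℕ) : Set (Fin n ⊕ Fin n) := {p | ∀ k, p = Sum.inr k → (k : ℕ) ≠ i ∧ (k : ℕ) ≠ i + 1}

/-- the groups of the amalgam -/
def XX (F : Type*) [Field F] (n : ℕ) : Set (Subgroup (symplecticGroup (Fin n) F)) :=
  {X | (∃ j, X = Fx F (SS j)) ∨ (∃ i, i + 1 < n ∧ X = Fx F (MS n i))}

/-- multiplicative on a subgroup -/
def MulOn {G H : Type*} [Group G] [Group H] (K : Subgroup G) (ψ : G → H) : Prop :=
  ∀ a ∈ K, ∀ b ∈ K, ψ (a * b) = ψ a * ψ b

namespace MulOn

variable {G H : Type*} [Group G] [Group H] {K : Subgroup G} {ψ : G → H} (h : MulOn K ψ)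

include h

lemma one : ψ 1 = 1 := by
  have := h 1 (one_mem _) 1 (one_mem _)
  rw [mul_one] at this
  exact mul_eq_left.1 this.symm

lemma inv {a : G} (ha : a ∈ K) : ψ a⁻¹ = (ψ a)⁻¹ := by
  rw [eq_inv_iff_mul_eq_one, ← h _ (inv_mem ha) _ ha, inv_mul_cancel, h.one]

lemma conj {a b : G} (ha : a ∈ K) (hb : b ∈ K) : ψ (a * b * a⁻¹) = ψ a * ψ b * (ψ a)⁻¹ := by
  rw [h _ (mul_mem ha hb) _ (inv_mem ha), h _ ha _ hb, h.inv ha]

lemma mono {K' : Subgroup G} (hK : K' ≤ K) : MulOn K' ψ := fun a ha b hb => h a (hK ha) b (hK hb)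

lemma comm {a b : G} (ha : a ∈ K) (hb : b ∈ K) (hab : a * b = b * a) : ψ a * ψ b = ψ b * ψ a := by
  rw [← h _ ha _ hb, ← h _ hb _ ha, hab]

/-- the equalizer of two functions multiplicative on a subgroup -/
lemma eq_on {ψ' : G → H} (h' : MulOn K ψ') {s : Set G} (hs : s ⊆ K) (he : ∀ g ∈ s, ψ g = ψ' g) :
    ∀ g ∈ closure s, ψ g = ψ' g := by
  have hle : closure s ≤ K := (closure_le _).2 hs
  intro g hg
  induction hg using closure_induction with
  | mem x hx => exact he x hx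
  | one => rw [h.one, h'.one]
  | mul a b ha hb iha ihb => rw [h _ (hle ha) _ (hle hb), h' _ (hle ha) _ (hle hb), iha, ihb]
  | inv a ha iha => rw [h.inv (hle ha), h'.inv (hle ha), iha]

end MulOn

/-- amalgam data -/
def Am {H : Type*} [Group H] (n : ℕ) (f : symplecticGroup (Fin n) F → H) : Prop :=
  ∀ X ∈ XX F n, ∀ Y ∈ XX F n, ∃ ψ : symplecticGroup (Fin n) F → H,
    MulOn (X ⊔ Y) ψ ∧ (∀ g ∈ X, ψ g = f g) ∧ ∀ g ∈ Y, ψ g = f g

namespace Am

variable {H : Type*} [Group H] {n : ℕ} {f : symplecticGroup (Fin n) F → H} (A : Am n f)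

include A

lemma mulOn {X : Subgroup (symplecticGroup (Fin n) F)} (hX : X ∈ XX F n) : MulOn X f := by
  obtain ⟨ψ, h, h1, -⟩ := A X hX X hX
  intro a ha b hb
  rw [← h1 a ha, ← h1 b hb, ← h1 _ (mul_mem ha hb), h a (mem_sup_left ha) b (mem_sup_left hb)]

lemma comm {X Y : Subgroup (symplecticGroup (Fin n) F)} (hX : X ∈ XX F n) (hY : Y ∈ XX F n) {x y : symplecticGroup (Fin n) F}
    (hx : x ∈ X) (hy : y ∈ Y) (h : x * y = y * x) : f x * f y = f y * f x := by
  obtain ⟨ψ, hm, h1, h2⟩ := A X hX Y hY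
  rw [← h1 x hx, ← h2 y hy, hm.comm (mem_sup_left hx) (mem_sup_right hy) h]

lemma conj {X Y : Subgroup (symplecticGroup (Fin n) F)} (hX : X ∈ XX F n) (hY : Y ∈ XX F n) {x y : symplecticGroup (Fin n) F}
    (hx : x ∈ X) (hy : y ∈ Y) (h : x * y * x⁻¹ ∈ Y) : f x * f y * (f x)⁻¹ = f (x * y * x⁻¹) := by
  obtain ⟨ψ, hm, h1, h2⟩ := A X hX Y hY
  rw [← h1 x hx, ← h2 y hy, ← h2 _ h, hm.conj (mem_sup_left hx) (mem_sup_right hy)]

end Am

lemma Am.comp {H : Type*} [Group H] {k n : ℕ} {f : symplecticGroup (Fin n) F → H} (A : Am n f)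
    (ι : symplecticGroup (Fin k) F →* symplecticGroup (Fin n) F)
    (hι : ∀ X' ∈ XX F k, ∃ X ∈ XX F n, X'.map ι ≤ X) : Am k (fun g => f (ι g)) := by
  intro X' hX' Y' hY'
  obtain ⟨X, hX, h1⟩ := hι X' hX'
  obtain ⟨Y, hY, h2⟩ := hι Y' hY'
  obtain ⟨ψ, hm, h3, h4⟩ := A X hX Y hY
  have hsup : ∀ a ∈ X' ⊔ Y', ι a ∈ X ⊔ Y := by
    intro a ha
    have : (X' ⊔ Y').map ι ≤ X ⊔ Y := by
      rw [Subgroup.map_sup]; exact sup_le_sup h1 h2
    exact this (mem_map_of_mem ι ha)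
  refine ⟨fun g => ψ (ι g), fun a ha b hb => ?_, fun g hg => h3 _ (h1 (mem_map_of_mem ι hg)),
    fun g hg => h4 _ (h2 (mem_map_of_mem ι hg))⟩
  change ψ (ι (a * b)) = _
  rw [map_mul]; exact hm _ (hsup a ha) _ (hsup b hb)

/-- the shift preserves the amalgam -/
lemma succ_XX {m : ℕ} : ∀ X' ∈ XX F m, ∃ X ∈ XX F (m + 1), X'.map (ios m) ≤ X := by
  rintro _ (⟨j, rfl⟩ | ⟨i, hi, rfl⟩)
  · refine ⟨_, Or.inl ⟨j.succ, rfl⟩, ?_⟩
    rintro _ ⟨g, hg, rfl⟩
    refine io_mem_Fx _ ?_ hg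
    rintro p ⟨h1, h2⟩
    rcases tri p with rfl | rfl | ⟨q, rfl⟩
    · exact Or.inl oo_not_range
    · exact Or.inl noo_not_range
    · refine Or.inr ⟨q, ⟨?_, ?_⟩, rfl⟩
      · rintro rfl; exact h1 rfl
      · rintro rfl; exact h2 rfl
  · refine ⟨_, Or.inr ⟨i + 1, by omega, rfl⟩, ?_⟩
    rintro _ ⟨g, hg, rfl⟩
    refine io_mem_Fx _ ?_ hg
    intro p h1
    rcases tri p with rfl | rfl | ⟨q, rfl⟩
    · exact Or.inl oo_not_range
    · exact Or.inl noo_not_range
    · refine Or.inr ⟨q, ?_, rfl⟩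
      rintro k rfl
      have := h1 k.succ rfl
      simp only [Fin.val_succ] at this
      omega

/-- reversal -/
noncomputable abbrev ir (F : Type*) [Field F] (n : ℕ) : symplecticGroup (Fin n) F →* symplecticGroup (Fin n) F :=
  io Fin.rev Fin.rev_injective

lemma sm_rev {n : ℕ} (p : Fin n ⊕ Fin n) : sm Fin.rev (sm Fin.rev p) = p := by
  rcases p with p | p
  · change Sum.inl (Fin.rev (Fin.rev p)) = _; rw [Fin.rev_rev]
  · change Sum.inr (Fin.rev (Fin.rev p)) = _; rw [Fin.rev_rev]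

lemma ir_ir {n : ℕ} (g : symplecticGroup (Fin n) F) : ir F n (ir F n g) = g := by
  have hex : ∀ v : Fin n ⊕ Fin n → F, ex Fin.rev (ex Fin.rev v) = v := by
    intro v
    funext p
    rw [← sm_rev p, ex_apply Fin.rev_injective, ex_apply Fin.rev_injective, sm_rev]
  apply ext_st_ee
  intro p
  have h1 : ee (F := F) p = ex Fin.rev (ex Fin.rev (ee p)) := by rw [hex]
  rw [h1, io_ex, io_ex, hex, hex]

lemma rev_XX {n : ℕ} : ∀ X' ∈ XX F n, ∃ X ∈ XX F n, X'.map (ir F n) ≤ X := by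
  rintro _ (⟨j, rfl⟩ | ⟨i, hi, rfl⟩)
  · refine ⟨_, Or.inl ⟨j.rev, rfl⟩, ?_⟩
    rintro _ ⟨g, hg, rfl⟩
    refine io_mem_Fx _ ?_ hg
    rintro p ⟨h1, h2⟩
    refine Or.inr ⟨sm Fin.rev p, ⟨?_, ?_⟩, sm_rev p⟩
    · intro e
      apply h1
      rw [← sm_rev p, e]; rfl
    · intro e
      apply h2
      rw [← sm_rev p, e]; rfl
  · refine ⟨_, Or.inr ⟨n - 2 - i, by omega, rfl⟩, ?_⟩
    rintro _ ⟨g, hg, rfl⟩
    refine io_mem_Fx _ ?_ hg
    intro p h1
    refine Or.inr ⟨sm Fin.rev p, ?_, sm_rev p⟩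
    intro k hk
    have h2 : p = Sum.inr k.rev := by rw [← sm_rev p, hk]; rfl
    have := h1 k.rev h2
    have h3 := Fin.val_rev k
    have h4 := k.isLt
    omega

/-- the groups `M i` are products of root groups -/
lemma M_struct {n i : ℕ} (hi : i + 1 < n) {x : symplecticGroup (Fin n) F} (hx : x ∈ Fx F (MS n i)) :
    ∃ a b c, x = ye (Sum.inl ⟨i, by omega⟩) (Sum.inl ⟨i, by omega⟩) a * ye (Sum.inl ⟨i, by omega⟩) (Sum.inl ⟨i + 1, hi⟩) b *
      ye (Sum.inl ⟨i + 1, hi⟩) (Sum.inl ⟨i + 1, hi⟩) c := by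
  set k : Fin n := ⟨i, by omega⟩ with hk
  set k' : Fin n := ⟨i + 1, hi⟩ with hk'
  have hkk : k ≠ k' := by intro e; have := congrArg Fin.val e; simp [hk, hk'] at this
  have hl : ∀ j, x ⋆ ee (Sum.inl j) = ee (Sum.inl j) := fun j => hx _ (by intro _ e; cases e)
  have hr : ∀ j, j ≠ k → j ≠ k' → x ⋆ ee (Sum.inr j) = ee (Sum.inr j) := fun j h1 h2 => hx _ (by
    intro j' e
    obtain rfl := Sum.inr.inj e
    exact ⟨fun e => h1 (Fin.ext e), fun e => h2 (Fin.ext e)⟩)
  have n1 : ∀ j : Fin n, -(Sum.inl j : Fin n ⊕ Fin n) = Sum.inr j := fun _ => rfl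
  have n2 : ∀ j : Fin n, -(Sum.inr j : Fin n ⊕ Fin n) = Sum.inl j := fun _ => rfl
  have ein : ∀ j : Fin n, eps F (Sum.inl j : Fin n ⊕ Fin n) = 1 := fun _ => rfl
  have ein' : ∀ j : Fin n, eps F (Sum.inr j : Fin n ⊕ Fin n) = -1 := fun _ => rfl
  -- coordinates of the image of `ee (inr j)`
  have c1 : ∀ j j' : Fin n, (x ⋆ ee (Sum.inr j)) (Sum.inr j') = ee (F := F) (Sum.inr j : Fin n ⊕ Fin n) (Sum.inr j') := by
    intro j j'
    have h1 : sf (x ⋆ ee (Sum.inl j')) (x ⋆ ee (Sum.inr j)) = sf (ee (F := F) (Sum.inl j')) (ee (Sum.inr j)) := sf_st _ _ _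
    rw [hl, sf_ee, sf_ee, n1, ein, one_mul, one_mul] at h1
    exact h1
  have c2 : ∀ j j' : Fin n, j' ≠ k → j' ≠ k' → (x ⋆ ee (Sum.inr j)) (Sum.inl j') = ee (F := F) (Sum.inr j : Fin n ⊕ Fin n) (Sum.inl j') := by
    intro j j' h1 h2
    have h3 : sf (x ⋆ ee (Sum.inr j')) (x ⋆ ee (Sum.inr j)) = sf (ee (F := F) (Sum.inr j')) (ee (Sum.inr j)) := sf_st _ _ _
    rw [hr _ h1 h2, sf_ee, sf_ee, n2, ein'] at h3
    linear_combination -h3
  have c3 : (x ⋆ ee (Sum.inr k)) (Sum.inl k') = (x ⋆ ee (Sum.inr k')) (Sum.inl k) := by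
    have h3 : sf (x ⋆ ee (Sum.inr k)) (x ⋆ ee (Sum.inr k')) = 0 := by
      rw [sf_st, sf_ee_ee]; rw [n2]; simp
    have e1 : x ⋆ ee (Sum.inr k) = ee (Sum.inr k) + (x ⋆ ee (Sum.inr k)) (Sum.inl k) • ee (Sum.inl k) +
        (x ⋆ ee (Sum.inr k)) (Sum.inl k') • ee (Sum.inl k') := by
      funext p
      simp only [Pi.add_apply, Pi.smul_apply, smul_eq_mul]
      rcases p with p | p
      · by_cases h1 : p = k
        · subst h1
          rw [ee_self, ee_of_ne (p := Sum.inr k) (by simp), ee_of_ne (p := Sum.inl k') (by simpa using hkk)]; ring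
        · by_cases h2 : p = k'
          · subst h2
            rw [ee_self, ee_of_ne (p := Sum.inr k) (by simp), ee_of_ne (p := Sum.inl k) (by simpa using h1)]; ring
          · rw [c2 _ _ h1 h2, ee_of_ne (p := Sum.inl k) (by simpa using h1), ee_of_ne (p := Sum.inl k') (by simpa using h2)]
            ring
      · rw [c1, ee_of_ne (p := Sum.inl k) (by simp), ee_of_ne (p := Sum.inl k') (by simp)]; ring
    rw [e1] at h3
    rw [sf_add_left, sf_add_left, sf_smul_left, sf_smul_left, sf_ee, sf_ee, sf_ee, n1, n1, n2, c1, c1, ein, ein, ein',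
      ee_self, ee_of_ne (show (Sum.inr k : Fin n ⊕ Fin n) ≠ Sum.inr k' by simpa using hkk)] at h3
    linear_combination h3
  refine ⟨(x ⋆ ee (Sum.inr k)) (Sum.inl k), (x ⋆ ee (Sum.inr k)) (Sum.inl k'), (x ⋆ ee (Sum.inr k')) (Sum.inl k'), ?_⟩
  have d1 : (Sum.inl k : Fin n ⊕ Fin n) ≠ -Sum.inl k := by rw [n1]; simp
  have d2 : (Sum.inl k : Fin n ⊕ Fin n) ≠ -Sum.inl k' := by rw [n1]; simp
  have d3 : (Sum.inl k' : Fin n ⊕ Fin n) ≠ -Sum.inl k' := by rw [n1]; simp
  have d4 : (Sum.inl k : Fin n ⊕ Fin n) ≠ Sum.inl k' := by simpa using hkk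
  apply ext_st_ee
  intro p
  have key : ∀ a b c : F, ∀ v, (ye (Sum.inl k) (Sum.inl k) a * ye (Sum.inl k) (Sum.inl k') b * ye (Sum.inl k') (Sum.inl k') c) ⋆ v =
      v + (a * sf (ee (Sum.inl k)) v + b * sf (ee (Sum.inl k')) v) • ee (Sum.inl k) +
        (b * sf (ee (Sum.inl k)) v + c * sf (ee (Sum.inl k')) v) • ee (Sum.inl k') := by
    intro a b c v
    rw [st_mul, st_mul, st_eq, st_eq, st_eq, ye_long, ye_short d2 d4, ye_long]
    simp only [sf_add_right, sf_smul_right, sf_self, sf_ee_ee (F := F) (show (Sum.inl k' : Fin n ⊕ Fin n) ≠ -Sum.inl k by rw [n1]; simp)]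
    module
  rw [key]
  rcases p with p | p
  · rw [hl, sf_ee_ee (by rw [n1]; simp), sf_ee_ee (by rw [n1]; simp)]; module
  · by_cases h1 : p = k
    · subst h1
      rw [← n1 k, sf_ee_neg, sf_ee_ee (i := Sum.inl k') (by rw [n1, n1]; simpa using hkk), ein, n1]
      funext q
      simp only [Pi.add_apply, Pi.smul_apply, smul_eq_mul]
      rcases q with q | q
      · by_cases h1 : q = k
        · subst h1
          rw [ee_self, ee_of_ne (p := Sum.inr k) (by simp), ee_of_ne (p := Sum.inl k') (by simpa using hkk)]; ring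
        · by_cases h2 : q = k'
          · subst h2
            rw [ee_self, ee_of_ne (p := Sum.inr k) (by simp), ee_of_ne (p := Sum.inl k) (by simpa using h1)]; ring
          · rw [c2 _ _ h1 h2, ee_of_ne (p := Sum.inl k) (by simpa using h1), ee_of_ne (p := Sum.inl k') (by simpa using h2)]
            ring
      · rw [c1, ee_of_ne (p := Sum.inl k) (by simp), ee_of_ne (p := Sum.inl k') (by simp)]; ring
    · by_cases h2 : p = k'
      · subst h2
        rw [← n1 k', sf_ee_neg, sf_ee_ee (i := Sum.inl k) (by rw [n1, n1]; simpa using Ne.symm hkk), ein, n1, c3]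
        funext q
        simp only [Pi.add_apply, Pi.smul_apply, smul_eq_mul]
        rcases q with q | q
        · by_cases h1 : q = k
          · subst h1
            rw [ee_self, ee_of_ne (p := Sum.inr k') (by simp), ee_of_ne (p := Sum.inl k') (by simpa using hkk)]; ring
          · by_cases h2 : q = k'
            · subst h2
              rw [ee_self, ee_of_ne (p := Sum.inr k') (by simp), ee_of_ne (p := Sum.inl k) (by simpa using h1)]; ring
            · rw [c2 _ _ h1 h2, ee_of_ne (p := Sum.inl k) (by simpa using h1), ee_of_ne (p := Sum.inl k') (by simpa using h2)]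
              ring
        · rw [c1, ee_of_ne (p := Sum.inl k) (by simp), ee_of_ne (p := Sum.inl k') (by simp)]; ring
      · rw [hr p h1 h2, sf_ee_ee (by rw [n1]; simpa using h1), sf_ee_ee (by rw [n1]; simpa using h2)]; module

/-- the plane groups are generated by long root groups -/
lemma S_gen {n : ℕ} (j : Fin n) {K : Subgroup (symplecticGroup (Fin n) F)} (h1 : ∀ a, ye (Sum.inl j) (Sum.inl j) a ∈ K)
    (h2 : ∀ a, ye (Sum.inr j) (Sum.inr j) a ∈ K) : Fx F (SS j) ≤ K := by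
  intro g hg
  have hf : Function.Injective (fun _ : Fin 1 => j) := fun a b _ => Subsingleton.elim a b
  obtain ⟨g', rfl⟩ := exists_io hf (g := g) (by
    intro p hp
    refine hg p ⟨?_, ?_⟩
    · rintro rfl; exact hp ⟨Sum.inl 0, rfl⟩
    · rintro rfl; exact hp ⟨Sum.inr 0, rfl⟩)
  have : (⊤ : Subgroup (symplecticGroup (Fin 1) F)) ≤ K.comap (io _ hf) := by
    rw [← yeG_one]
    unfold yeG
    rw [closure_le]
    rintro _ ⟨a, b, hab, c, rfl⟩
    rw [SetLike.mem_coe, mem_comap, io_ye _ hab]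
    rcases a with a | a <;> rcases b with b | b
    · exact h1 c
    · exact absurd (by rw [Subsingleton.elim a b]; rfl) hab
    · exact absurd (by rw [Subsingleton.elim a b]; rfl) hab
    · exact h2 c
  exact this (mem_top g')

/-- elements of a plane group moving vectors of the plane -/
lemma S_trans {n : ℕ} (j : Fin n) {v w : Fin 1 ⊕ Fin 1 → F} (hv : v ≠ 0) (hw : w ≠ 0) :
    ∃ s ∈ Fx F (SS j), s ⋆ ex (fun _ : Fin 1 => j) v = ex (fun _ : Fin 1 => j) w := by
  have hf : Function.Injective (fun _ : Fin 1 => j) := fun a b _ => Subsingleton.elim a b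
  obtain ⟨g, hg⟩ := trans_v hv hw
  refine ⟨io _ hf g, ?_, by rw [io_ex, hg]⟩
  rintro p ⟨h1, h2⟩
  refine io_fix hf g ?_
  rintro ⟨q | q, rfl⟩
  · exact h1 rfl
  · exact h2 rfl

/-- block number -/
def bl {n : ℕ} : Fin n ⊕ Fin n → ℕ := Sum.elim (fun k => (k : ℕ)) (fun k => (k : ℕ))

lemma bl_neg {n : ℕ} (p : Fin n ⊕ Fin n) : bl (-p) = bl p := by
  rcases p with p | p <;> rfl

lemma bl_lt {n : ℕ} (p : Fin n ⊕ Fin n) : bl p < n := by
  rcases p with p | p <;> exact p.isLt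

lemma eq_of_bl {n : ℕ} {p q : Fin n ⊕ Fin n} (h : bl p = bl q) : p = q ∨ p = -q := by
  rcases p with p | p <;> rcases q with q | q
  · left; rw [Fin.ext (show (p : ℕ) = q from h)]
  · right; rw [Fin.ext (show (p : ℕ) = q from h)]; rfl
  · right; rw [Fin.ext (show (p : ℕ) = q from h)]; rfl
  · left; rw [Fin.ext (show (p : ℕ) = q from h)]

/-- changing a sign -/
lemma flip {n : ℕ} (hn : 2 ≤ n) {K : Subgroup (symplecticGroup (Fin n) F)} {i j : Fin n ⊕ Fin n} (h1 : i ≠ j) (h2 : i ≠ -j)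
    (ki : ∀ a, ye i i a ∈ K) (kj : ∀ a, ye j j a ∈ K) (k : ∀ a, ye (-i) j a ∈ K) (a : F) : ye i j a ∈ K := by
  have R := spr (F := F) (l := Fin n) (by simpa using hn)
  have e1 := R.c3 h1 h2 1 (eps F i * a)
  have e2 : eps F i * 1 * (eps F i * a) = a := by linear_combination a * eps_sq (F := F) i
  rw [e2] at e1
  rw [← mul_inv_eq_iff_eq_mul.2 e1, commutatorElement_def]
  exact mul_mem (mul_mem (mul_mem (mul_mem (ki _) (k _)) (inv_mem (ki _))) (inv_mem (k _))) (inv_mem (kj _))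

/-- **generation** by the groups of the amalgam -/
theorem gen_lemma {n : ℕ} {K : Subgroup (symplecticGroup (Fin n) F)} {E : Set (Fin n ⊕ Fin n)}
    (hE : ∀ p ∈ E, ∃ k : Fin n, p = Sum.inr k ∧ ((k : ℕ) = 0 ∨ (k : ℕ) + 1 = n))
    (h1 : ∀ i, i ∉ E → ∀ a, ye i i a ∈ K)
    (h2 : ∀ k, ∀ (hk : k + 1 < n), ∀ a, ye (Sum.inl ⟨k, by omega⟩) (Sum.inl ⟨k + 1, hk⟩) a ∈ K)
    {i j : Fin n ⊕ Fin n} (hij : i ≠ -j) (hi : i ∉ E) (hj : j ∉ E) (a : F) : ye i j a ∈ K := by
  have hEl : ∀ k : Fin n, (Sum.inl k : Fin n ⊕ Fin n) ∉ E := by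
    intro k hk
    obtain ⟨k', e, -⟩ := hE _ hk
    cases e
  have key : ∀ d : ℕ, ∀ i j : Fin n ⊕ Fin n, i ∉ E → j ∉ E → bl j = bl i + d + 1 → ∀ a, ye i j a ∈ K := by
    intro d
    induction d with
    | zero =>
      intro i j hi hj hd a
      have hjn := bl_lt j
      have hn : 2 ≤ n := by omega
      have R := spr (F := F) (l := Fin n) (by simpa using hn)
      obtain ⟨k, hk⟩ : ∃ k : Fin n, bl i = k := by
        rcases i with i | i
        · exact ⟨i, rfl⟩
        · exact ⟨i, rfl⟩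
      have hk1 : (k : ℕ) + 1 < n := by omega
      set k' : Fin n := ⟨(k : ℕ) + 1, hk1⟩ with hk'
      have hkk : k ≠ k' := by intro e; have := congrArg Fin.val e; simp [hk'] at this
      have hll : ∀ a, ye (Sum.inl k) (Sum.inl k') a ∈ K := fun a => h2 k hk1 a
      have n1 : ∀ j : Fin n, -(Sum.inl j : Fin n ⊕ Fin n) = Sum.inr j := fun _ => rfl
      have n2 : ∀ j : Fin n, -(Sum.inr j : Fin n ⊕ Fin n) = Sum.inl j := fun _ => rfl
      have hi' : i = Sum.inl k ∨ i = Sum.inr k := eq_of_bl (q := Sum.inl k) hk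
      have hj' : j = Sum.inl k' ∨ j = Sum.inr k' := eq_of_bl (q := Sum.inl k') (by rw [hd, hk]; rfl)
      have hrl : (Sum.inr k : Fin n ⊕ Fin n) ∉ E → ∀ a, ye (Sum.inr k) (Sum.inl k') a ∈ K := by
        intro h a
        exact flip hn (by simp) (by rw [n1]; simpa using hkk) (h1 _ h) (h1 _ (hEl _)) (by rw [n2]; exact hll) a
      have hlr : (Sum.inr k' : Fin n ⊕ Fin n) ∉ E → ∀ a, ye (Sum.inl k) (Sum.inr k') a ∈ K := by
        intro h a
        rw [R.symm]
        refine flip hn (by simp) (by rw [n1]; simpa using hkk.symm) (h1 _ h) (h1 _ (hEl _)) (fun a => ?_) a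
        rw [n2, R.symm]; exact hll a
      rcases hi' with rfl | rfl <;> rcases hj' with rfl | rfl
      · exact hll a
      · exact hlr hj a
      · exact hrl hi a
      · refine flip hn (by simpa using hkk) (by rw [n2]; simp) (h1 _ hi) (h1 _ hj) (fun a => ?_) a
        rw [n2]; exact hlr hj a
    | succ d ih =>
      intro i j hi hj hd a
      have hjn := bl_lt j
      have hn : 2 ≤ n := by omega
      have R := spr (F := F) (l := Fin n) (by simpa using hn)
      set s : Fin n ⊕ Fin n := Sum.inl ⟨bl i + 1, by omega⟩ with hs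
      have bs : bl s = bl i + 1 := rfl
      have hsE : -s ∉ E := by
        intro h
        obtain ⟨k, e, hk⟩ := hE _ h
        have h3 : bl (-s) = k := by rw [e]; rfl
        rw [bl_neg, bs] at h3
        omega
      have hne : ∀ {p q : Fin n ⊕ Fin n}, bl p ≠ bl q → p ≠ q := fun h e => h (by rw [e])
      have e1 := R.c1 (i := i) (j := s) (k := j) (hne (by omega)) (hne (by rw [bl_neg]; omega)) (hne (by omega))
        (hne (by rw [bl_neg]; omega)) (hne (by omega)) (hne (by rw [bl_neg]; omega)) 1 a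
      have e2 : eps F s * 1 * a = a := by
        have : eps F s = 1 := rfl
        rw [this]; ring
      rw [e2] at e1
      have m1 := ih (-s) j hsE hj (by rw [bl_neg]; omega) a
      have m2 : ye i s 1 ∈ K := by
        -- adjacent blocks
        have hk1 : bl i + 1 < n := by omega
        rcases i with i | i
        · exact h2 i hk1 1
        · have n2 : -(Sum.inr i : Fin n ⊕ Fin n) = Sum.inl i := rfl
          refine flip hn (by simp [hs]) (hne (by rw [bl_neg s, bs]; omega)) (h1 _ hi) (h1 _ (hEl _)) (fun a => ?_) 1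
          rw [n2]; exact h2 i hk1 a
      rw [← e1, commutatorElement_def]
      exact mul_mem (mul_mem (mul_mem m2 m1) (inv_mem m2)) (inv_mem m1)
  rcases lt_trichotomy (bl i) (bl j) with h | h | h
  · exact key (bl j - bl i - 1) i j hi hj (by omega) a
  · rcases eq_of_bl h with rfl | h
    · exact h1 _ hi a
    · exact absurd h hij
  · have hin := bl_lt i
    have R := spr (F := F) (l := Fin n) (by simp; omega)
    rw [R.symm]
    exact key (bl i - bl j - 1) j i hj hi (by omega) a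

end Cfsg.Agent.H93.SpC
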