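import Cfsg.Agent.H93.SpC.Inj

set_option autoImplicit false
set_option linter.unusedSectionVars false

/-!
Embeddings of symplectic groups along injections of index types.
-/

namespace Cfsg.Agent.H93.SpC

open Matrix Subgroup
open Cfsg.Agent.ClassSp Cfsg.Agent.Stb

attribute [local instance] sumNeg

section act

variable {l : Type*} [Fintype l] [DecidableEq l] {F : Type*} [Field F]

/-- the action -/
noncomputable abbrev st (g : symplecticGroup l F) (v : l ⊕ l → F) : l ⊕ l → F := natRep g v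

@[inherit_doc] scoped infixr:73 " ⋆ " => st

lemma st_eq (g : symplecticGroup l F) (v : l ⊕ l → F) : g ⋆ v = (g : Matrix (l ⊕ l) (l ⊕ l) F) *ᵥ v := rfl

lemma st_mul (g h : symplecticGroup l F) (v : l ⊕ l → F) : (g * h) ⋆ v = g ⋆ (h ⋆ v) := mul_mulVec g h v
lemma st_one (v : l ⊕ l → F) : (1 : symplecticGroup l F) ⋆ v = v := one_mulVec' v
lemma st_inv (g : symplecticGroup l F) (v : l ⊕ l → F) : g⁻¹ ⋆ (g ⋆ v) = v := inv_mulVec_mulVec g v
lemma st_inv' (g : symplecticGroup l F) (v : l ⊕ l → F) : g ⋆ (g⁻¹ ⋆ v) = v := mulVec_inv_mulVec g v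
lemma st_add (g : symplecticGroup l F) (v w : l ⊕ l → F) : g ⋆ (v + w) = g ⋆ v + g ⋆ w := map_add _ _ _
lemma st_sub (g : symplecticGroup l F) (v w : l ⊕ l → F) : g ⋆ (v - w) = g ⋆ v - g ⋆ w := map_sub _ _ _
lemma st_smul (g : symplecticGroup l F) (c : F) (v : l ⊕ l → F) : g ⋆ (c • v) = c • (g ⋆ v) := map_smul _ _ _
lemma st_zero (g : symplecticGroup l F) : g ⋆ (0 : l ⊕ l → F) = 0 := map_zero _
lemma sf_st (g : symplecticGroup l F) (u v : l ⊕ l → F) : sf (g ⋆ u) (g ⋆ v) = sf u v := sf_mulVec g u v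
lemma st_inj (g : symplecticGroup l F) {u v : l ⊕ l → F} (h : g ⋆ u = g ⋆ v) : u = v := by
  rw [← st_inv g u, h, st_inv]

lemma ext_st {g h : symplecticGroup l F} (H : ∀ v, g ⋆ v = h ⋆ v) : g = h := ext_vec H

lemma ext_st_ee {g h : symplecticGroup l F} (H : ∀ p, g ⋆ ee p = h ⋆ ee p) : g = h := by
  apply ext_st
  intro v
  have : (natRep g).toLinearMap = (natRep h).toLinearMap := ext_ee fun p => H p
  exact congrArg (fun f : (l ⊕ l → F) →ₗ[F] (l ⊕ l → F) => f v) this

lemma st_eq_inv {g : symplecticGroup l F} {u v : l ⊕ l → F} (h : g ⋆ u = v) : g⁻¹ ⋆ v = u := by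
  rw [← h, st_inv]

lemma ofLin_st (f : (l ⊕ l → F) →ₗ[F] (l ⊕ l → F)) (h : ∀ u v, sf (f u) (f v) = sf u v) (v : l ⊕ l → F) :
    ofLin f h ⋆ v = f v := ofLin_mulVec f h v

/-- pointwise stabilizers of sets of basis vectors -/
def Fx (F : Type*) [Field F] (A : Set (l ⊕ l)) : Subgroup (symplecticGroup l F) where
  carrier := {g | ∀ p ∈ A, g ⋆ ee p = ee p}
  one_mem' := fun p _ => st_one _
  mul_mem' := by
    intro a b ha hb p hp
    rw [st_mul, hb p hp, ha p hp]
  inv_mem' := by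
    intro a ha p hp
    exact st_eq_inv (ha p hp)

lemma mem_Fx {A : Set (l ⊕ l)} {g : symplecticGroup l F} : g ∈ Fx F A ↔ ∀ p ∈ A, g ⋆ ee p = ee p := Iff.rfl

lemma ee_self (p : l ⊕ l) : ee (F := F) p p = 1 := by rw [ee_apply, if_pos rfl]
lemma ee_of_ne {p q : l ⊕ l} (h : q ≠ p) : ee (F := F) p q = 0 := by rw [ee_apply, if_neg h]

lemma eps_ne (i : l ⊕ l) : eps F i ≠ 0 := fun h0 => by have := eps_sq (F := F) i; rw [h0] at this; simp at this

lemma ye_ee {i j : l ⊕ l} (h : i ≠ -j) (a : F) {p : l ⊕ l} (h1 : p ≠ -i) (h2 : p ≠ -j) : ye i j a ⋆ ee p = ee p := by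
  rw [st_eq, ye_mulVec h, sf_ee_ee h2, sf_ee_ee h1]; module

lemma ye_mem_Fx {i j : l ⊕ l} (h : i ≠ -j) (a : F) {A : Set (l ⊕ l)} (h1 : -i ∉ A) (h2 : -j ∉ A) : ye i j a ∈ Fx F A := by
  intro p hp
  exact ye_ee h a (fun e => h1 (e ▸ hp)) (fun e => h2 (e ▸ hp))

lemma ye_not_fix {i j : l ⊕ l} (h : i ≠ -j) {a : F} (ha : a ≠ 0) : ye i j a ⋆ ee (-j) ≠ ee (-j) := by
  intro e
  rw [st_eq, ye_mulVec h, sf_ee_neg] at e
  have h1 := congrFun e i
  have hne : i ≠ -j := h
  simp only [Pi.add_apply, Pi.smul_apply, smul_eq_mul, ee_self, ee_of_ne hne, mul_one, zero_add] at h1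
  by_cases hij : i = j
  · rw [if_pos hij] at h1
    simp only [zero_mul, add_zero] at h1
    rcases mul_eq_zero.1 h1 with h2 | h2
    · exact ha h2
    · exact eps_ne j h2
  · rw [if_neg hij, ee_of_ne hij, mul_zero, add_zero] at h1
    rcases mul_eq_zero.1 h1 with h2 | h2
    · exact ha h2
    · exact eps_ne j h2

end act

section emb

variable {k l : Type*} [Fintype k] [DecidableEq k] [Fintype l] [DecidableEq l] {F : Type*} [Field F]

/-- the index map -/
def sm (f : k → l) : k ⊕ k → l ⊕ l := Sum.map f f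

omit [Fintype k] [DecidableEq k] [Fintype l] [DecidableEq l] in
lemma sm_neg (f : k → l) (p : k ⊕ k) : sm f (-p) = -sm f p := by
  rcases p with p | p <;> rfl

omit [Fintype k] [DecidableEq k] [Fintype l] [DecidableEq l] in
lemma sm_inj {f : k → l} (hf : Function.Injective f) : Function.Injective (sm f) := Sum.map_injective.2 ⟨hf, hf⟩

omit [Fintype k] [DecidableEq k] [Fintype l] [DecidableEq l] in
lemma eps_sm (f : k → l) (p : k ⊕ k) : eps F (sm f p) = eps F p := by
  rcases p with p | p <;> rfl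

omit [Fintype k] [DecidableEq k] [Fintype l] [DecidableEq l] in
lemma neg_not_range {f : k → l} {p : l ⊕ l} (h : p ∉ Set.range (sm f)) : -p ∉ Set.range (sm f) := by
  rintro ⟨q, hq⟩
  exact h ⟨-q, by rw [sm_neg, hq, neg_neg]⟩

/-- extension by zero -/
noncomputable def ex (f : k → l) (a : k ⊕ k → F) : l ⊕ l → F := ∑ q, a q • ee (sm f q)

omit [DecidableEq k] [Fintype l] in
lemma ex_add (f : k → l) (a b : k ⊕ k → F) : ex f (a + b) = ex f a + ex f b := by
  unfold ex
  rw [← Finset.sum_add_distrib]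
  exact Finset.sum_congr rfl fun q _ => by rw [Pi.add_apply, add_smul]

omit [DecidableEq k] [Fintype l] in
lemma ex_smul (f : k → l) (c : F) (a : k ⊕ k → F) : ex f (c • a) = c • ex f a := by
  unfold ex
  rw [Finset.smul_sum]
  exact Finset.sum_congr rfl fun q _ => by rw [Pi.smul_apply, smul_eq_mul, smul_smul]

omit [DecidableEq k] [Fintype l] in
lemma ex_zero (f : k → l) : ex f (0 : k ⊕ k → F) = 0 := by
  unfold ex; simp

omit [Fintype l] in
lemma ex_ee (f : k → l) (q : k ⊕ k) : ex f (ee (F := F) q) = ee (sm f q) := by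
  unfold ex
  rw [Finset.sum_eq_single q]
  · rw [ee_self, one_smul]
  · intro b _ hb; rw [ee_of_ne hb, zero_smul]
  · intro h; exact absurd (Finset.mem_univ _) h

omit [DecidableEq k] [Fintype l] in
lemma ex_apply {f : k → l} (hf : Function.Injective f) (a : k ⊕ k → F) (q : k ⊕ k) : ex f a (sm f q) = a q := by
  unfold ex
  rw [Finset.sum_apply, Finset.sum_eq_single q]
  · rw [Pi.smul_apply, ee_apply, if_pos rfl, smul_eq_mul, mul_one]
  · intro b _ hb
    rw [Pi.smul_apply, ee_apply, if_neg (fun e => hb (sm_inj hf e).symm), smul_zero]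
  · intro h; exact absurd (Finset.mem_univ _) h

omit [DecidableEq k] [Fintype l] in
lemma ex_of_not_range {f : k → l} (a : k ⊕ k → F) {p : l ⊕ l} (hp : p ∉ Set.range (sm f)) : ex f a p = 0 := by
  unfold ex
  rw [Finset.sum_apply]
  refine Finset.sum_eq_zero fun b _ => ?_
  rw [Pi.smul_apply, ee_apply, if_neg (fun e => hp ⟨b, e.symm⟩), smul_zero]

omit [DecidableEq k] [Fintype l] in
lemma ex_comp {f : k → l} (hf : Function.Injective f) (a : k ⊕ k → F) : (ex f a) ∘ sm f = a := by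
  funext q; exact ex_apply hf a q

omit [DecidableEq k] in
lemma sf_ex_left (f : k → l) (a : k ⊕ k → F) (v : l ⊕ l → F) : sf (ex f a) v = sf a (v ∘ sm f) := by
  have h1 : ∀ (s : Finset (k ⊕ k)), sf (∑ q ∈ s, a q • ee (F := F) (sm f q)) v = ∑ q ∈ s, a q * sf (ee (sm f q)) v := by
    intro s
    induction s using Finset.cons_induction with
    | empty => simp [sf_zero_left]
    | cons q s hq ih => rw [Finset.sum_cons, Finset.sum_cons, sf_add_left, sf_smul_left, ih]
  unfold ex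
  rw [h1, sf_eq_sum]
  refine Finset.sum_congr rfl fun q _ => ?_
  rw [sf_ee, eps_sm, Function.comp_apply, sm_neg]; ring

omit [DecidableEq k] in
lemma sf_ex_right (f : k → l) (v : l ⊕ l → F) (a : k ⊕ k → F) : sf v (ex f a) = sf (v ∘ sm f) a := by
  rw [sf_swap, sf_ex_left, ← sf_swap]

omit [DecidableEq k] in
lemma sf_ex_ex {f : k → l} (hf : Function.Injective f) (a b : k ⊕ k → F) : sf (ex f a) (ex f b) = sf a b := by
  rw [sf_ex_left, ex_comp hf]

/-- the extended linear map -/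
noncomputable def ioL (f : k → l) (g : symplecticGroup k F) : (l ⊕ l → F) →ₗ[F] (l ⊕ l → F) where
  toFun v := v + ex f (g ⋆ (v ∘ sm f) - v ∘ sm f)
  map_add' v w := by
    have : (v + w) ∘ sm f = v ∘ sm f + w ∘ sm f := rfl
    rw [this, st_add, add_sub_add_comm, ex_add]; abel
  map_smul' c v := by
    have : (c • v) ∘ sm f = c • (v ∘ sm f) := rfl
    rw [this, st_smul, ← smul_sub, ex_smul, RingHom.id_apply, smul_add]

lemma ioL_comp {f : k → l} (hf : Function.Injective f) (g : symplecticGroup k F) (v : l ⊕ l → F) :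
    (ioL f g v) ∘ sm f = g ⋆ (v ∘ sm f) := by
  change (v + ex f (g ⋆ (v ∘ sm f) - v ∘ sm f)) ∘ sm f = _
  have h1 : (v + ex f (g ⋆ (v ∘ sm f) - v ∘ sm f)) ∘ sm f = v ∘ sm f + (ex f (g ⋆ (v ∘ sm f) - v ∘ sm f)) ∘ sm f := rfl
  rw [h1, ex_comp hf]; abel

lemma ioL_isom {f : k → l} (hf : Function.Injective f) (g : symplecticGroup k F) (v w : l ⊕ l → F) :
    sf (ioL f g v) (ioL f g w) = sf v w := by
  change sf (v + ex f (g ⋆ (v ∘ sm f) - v ∘ sm f)) (w + ex f (g ⋆ (w ∘ sm f) - w ∘ sm f)) = sf v w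
  rw [sf_add_left, sf_add_right, sf_add_right, sf_ex_right, sf_ex_left, sf_ex_ex hf]
  simp only [sf_sub_left, sf_sub_right, sf_st]
  ring

/-- the embedding -/
noncomputable def io (f : k → l) (hf : Function.Injective f) : symplecticGroup k F →* symplecticGroup l F where
  toFun g := ofLin (ioL f g) (ioL_isom hf g)
  map_one' := by
    apply ext_st; intro v
    rw [ofLin_st, st_one]
    change v + ex f ((1 : symplecticGroup k F) ⋆ (v ∘ sm f) - v ∘ sm f) = v
    rw [st_one, sub_self, ex_zero, add_zero]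
  map_mul' g h := by
    apply ext_st; intro v
    rw [st_mul, ofLin_st, ofLin_st, ofLin_st]
    change v + ex f ((g * h) ⋆ (v ∘ sm f) - v ∘ sm f) =
      ioL f h v + ex f (g ⋆ ((ioL f h v) ∘ sm f) - (ioL f h v) ∘ sm f)
    rw [ioL_comp hf]
    change _ = v + ex f (h ⋆ (v ∘ sm f) - v ∘ sm f) + ex f (g ⋆ (h ⋆ (v ∘ sm f)) - h ⋆ (v ∘ sm f))
    rw [add_assoc, ← ex_add, st_mul]
    congr 2
    abel

variable {f : k → l} (hf : Function.Injective f)

lemma io_st (g : symplecticGroup k F) (v : l ⊕ l → F) : io f hf g ⋆ v = v + ex f (g ⋆ (v ∘ sm f) - v ∘ sm f) := by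
  change ofLin (ioL f g) (ioL_isom hf g) ⋆ v = _
  rw [ofLin_st]; rfl

lemma io_ex (g : symplecticGroup k F) (a : k ⊕ k → F) : io f hf g ⋆ ex f a = ex f (g ⋆ a) := by
  rw [io_st, ex_comp hf]
  have h1 : ex f (g ⋆ a) = ex f (a + (g ⋆ a - a)) := by congr 1; abel
  rw [h1, ex_add]

lemma io_ee (g : symplecticGroup k F) (q : k ⊕ k) : io f hf g ⋆ ee (sm f q) = ex f (g ⋆ ee q) := by
  rw [← ex_ee, io_ex]

lemma ee_comp {p : l ⊕ l} (hp : p ∉ Set.range (sm f)) : (ee (F := F) p) ∘ sm f = 0 := by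
  funext q
  rw [Function.comp_apply, ee_of_ne (fun e => hp ⟨q, e⟩)]; rfl

lemma io_fix (g : symplecticGroup k F) {p : l ⊕ l} (hp : p ∉ Set.range (sm f)) : io f hf g ⋆ ee p = ee p := by
  rw [io_st, ee_comp hp, st_zero, sub_zero, ex_zero, add_zero]

include hf in
lemma ex_injective {a b : k ⊕ k → F} (h : ex f a = ex f b) : a = b := by
  rw [← ex_comp hf a, h, ex_comp hf]

lemma io_injective : Function.Injective (io (F := F) f hf) := by
  intro g h e
  apply ext_st
  intro v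
  apply ex_injective hf
  rw [← io_ex hf, ← io_ex hf, e]

include hf in
lemma comp_ee (q : k ⊕ k) : (ee (F := F) (sm f q)) ∘ sm f = ee q := by
  rw [← ex_ee, ex_comp hf]

lemma io_ye {i j : k ⊕ k} (h : i ≠ -j) (a : F) : io f hf (ye i j a) = ye (sm f i) (sm f j) a := by
  have h' : sm f i ≠ -sm f j := fun e => h (sm_inj hf (by rw [e, sm_neg]))
  apply ext_st; intro v
  rw [io_st, st_eq _ (v ∘ sm f), ye_mulVec h, st_eq, ye_mulVec h', ← ex_ee f i, ← ex_ee f j, sf_ex_left, sf_ex_left, ex_ee,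
    ex_ee]
  have e1 : (if sm f i = sm f j then (0 : F) else 1) = if i = j then 0 else 1 := by
    by_cases hij : i = j
    · rw [if_pos hij, if_pos (by rw [hij])]
    · rw [if_neg hij, if_neg (fun e => hij (sm_inj hf e))]
  rw [e1, add_sub_cancel_left, ex_smul, ex_add, ex_smul, ex_smul, ex_ee, ex_ee]

lemma io_mem_Fx {A' : Set (k ⊕ k)} {A : Set (l ⊕ l)} (h : ∀ p ∈ A, p ∉ Set.range (sm f) ∨ ∃ q ∈ A', sm f q = p)
    {g : symplecticGroup k F} (hg : g ∈ Fx F A') : io f hf g ∈ Fx F A := by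
  intro p hp
  rcases h p hp with h1 | ⟨q, hq, rfl⟩
  · exact io_fix hf g h1
  · rw [io_ee, hg q hq, ex_ee]

/-- elements fixing all basis vectors outside of the range come from the small group -/
lemma exists_io {g : symplecticGroup l F} (hg : ∀ p, p ∉ Set.range (sm f) → g ⋆ ee p = ee p) : ∃ g', io f hf g' = g := by
  have hsupp : ∀ a : k ⊕ k → F, ex f ((g ⋆ ex f a) ∘ sm f) = g ⋆ ex f a := by
    intro a
    funext p
    by_cases hp : p ∈ Set.range (sm f)
    · obtain ⟨q, rfl⟩ := hp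
      rw [ex_apply hf]; rfl
    · rw [ex_of_not_range _ hp]
      have h1 : sf (ee (-p)) (g ⋆ ex f a) = 0 := by
        have h2 := hg (-p) (neg_not_range hp)
        rw [← h2, sf_st, sf_ee, neg_neg, ex_of_not_range _ hp, mul_zero]
      rw [sf_ee, neg_neg] at h1
      exact ((mul_eq_zero.1 h1).resolve_left (eps_ne _)).symm
  let L : (k ⊕ k → F) →ₗ[F] (k ⊕ k → F) :=
    { toFun := fun a => (g ⋆ ex f a) ∘ sm f
      map_add' := fun a b => by rw [ex_add, st_add]; rfl
      map_smul' := fun c a => by rw [ex_smul, st_smul]; rfl }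
  have hL : ∀ u v, sf (L u) (L v) = sf u v := by
    intro u v
    change sf ((g ⋆ ex f u) ∘ sm f) ((g ⋆ ex f v) ∘ sm f) = _
    rw [← sf_ex_left, hsupp, sf_st, sf_ex_ex hf]
  refine ⟨ofLin L hL, ?_⟩
  apply ext_st_ee
  intro p
  by_cases hp : p ∈ Set.range (sm f)
  · obtain ⟨q, rfl⟩ := hp
    rw [io_ee, ofLin_st]
    change ex f ((g ⋆ ex f (ee q)) ∘ sm f) = _
    rw [hsupp, ex_ee]
  · rw [io_fix hf _ hp, hg p hp]

end emb

end Cfsg.Agent.H93.SpC
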