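import Cfsg.Agent.H93.SpC.Four

set_option autoImplicit false
set_option linter.unusedSectionVars false

/-!
The symplectic group is the universal completion of the slim amalgam.
-/

namespace Cfsg.Agent.H93.SpC

open Matrix Subgroup
open Cfsg.Agent.ClassSp Cfsg.Agent.Stb
open scoped commutatorElement

attribute [local instance] sumNeg

variable {F : Type*} [Field F] {H : Type*} [Group H]

lemma wl_mem {n : ℕ} (p : Fin n ⊕ Fin n) {K : Subgroup (symplecticGroup (Fin n) F)} (h1 : ∀ a, ye p p a ∈ K)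
    (h2 : ∀ a, ye (-p) (-p) a ∈ K) : wl F p ∈ K := mul_mem (mul_mem (h2 _) (h1 _)) (h2 _)

lemma wl_SS {n : ℕ} (p : Fin n ⊕ Fin n) {j : Fin n} (hj : bl p = j) : wl F p ∈ Fx F (SS j) := by
  refine wl_mem p (fun a => ?_) (fun a => ?_)
  · obtain ⟨j', hj', h⟩ := long_mem (F := F) p
    have : j = j' := Fin.ext (by rw [← hj, hj'])
    rw [this]; exact h a
  · obtain ⟨j', hj', h⟩ := long_mem (F := F) (-p)
    rw [bl_neg] at hj'
    have : j = j' := Fin.ext (by rw [← hj, hj'])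
    rw [this]; exact h a

lemma wl_io {k l : ℕ} {f : Fin k → Fin l} (hf : Function.Injective f) (p : Fin k ⊕ Fin k) :
    io f hf (wl F p) = wl F (sm f p) := by
  unfold wl
  rw [map_mul, map_mul, io_ye _ (pne p), io_ye _ (pne (-p)), sm_neg, eps_sm]

/-- the map on one side -/
structure Side {m : ℕ} (f φ : symplecticGroup (Fin (m + 2)) F → H) : Prop where
  mul : MulOn (Fx F {oo (m + 1)}) φ
  S : ∀ j : Fin (m + 2), j ≠ 0 → ∀ g ∈ Fx F (SS j), φ g = f g
  M : ∀ i, i + 1 < m + 2 → ∀ g ∈ Fx F (MS (m + 2) i), φ g = f g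
  comm : ∀ k l, k ≠ -l → k ≠ oo (m + 1) → k ≠ -oo (m + 1) → l ≠ oo (m + 1) → l ≠ -oo (m + 1) → ∀ a,
    ∀ s ∈ Fx F (SS (0 : Fin (m + 2))), φ (ye k l a) * f s = f s * φ (ye k l a)

/-- restriction of `io` to fixators -/
lemma mem_Fx_of_io {k l : ℕ} {f : Fin k → Fin l} (hf : Function.Injective f) {g : symplecticGroup (Fin k) F}
    {A : Set (Fin l ⊕ Fin l)} (h : io f hf g ∈ Fx F A) : g ∈ Fx F {q | sm f q ∈ A} := by
  intro q hq
  have h1 := h _ hq
  rw [io_ee, ← ex_ee] at h1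
  exact ex_injective hf h1

theorem exists_side (hF : ∃ a : F, a ≠ 0 ∧ a ≠ 1) {m : ℕ} {f : symplecticGroup (Fin (m + 2)) F → H} (A : Am (m + 2) f)
    (T : ∀ f' : symplecticGroup (Fin (m + 1)) F → H, Am (m + 1) f' →
      ∃ Φ : symplecticGroup (Fin (m + 1)) F →* H, ∀ X ∈ XX F (m + 1), ∀ g ∈ X, Φ g = f' g) :
    ∃ φ, Side f φ := by
  obtain ⟨Φ, hΦ⟩ := T _ (A.comp (ios (m + 1)) succ_XX)
  refine ⟨phi f Φ, ⟨phi_mul A Φ hΦ hF, ?_, ?_, ?_⟩⟩
  · intro j hj g hg
    obtain ⟨j', rfl⟩ := Fin.exists_succ_eq.2 hj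
    obtain ⟨g', rfl⟩ := exists_io (Fin.succ_injective (m + 1)) (g := g) (by
      intro p hp
      refine hg p ⟨?_, ?_⟩
      · rintro rfl; exact hp ⟨Sum.inl j', rfl⟩
      · rintro rfl; exact hp ⟨Sum.inr j', rfl⟩)
    rw [phi_ios A Φ hΦ]
    refine hΦ _ (Fx_SS_mem j') g' ?_
    intro q hq
    refine mem_Fx_of_io _ hg q ⟨fun e => hq.1 ?_, fun e => hq.2 ?_⟩
    · exact sm_inj (Fin.succ_injective (m + 1)) e
    · exact sm_inj (Fin.succ_injective (m + 1)) e
  · intro i hi g hg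
    rcases Nat.eq_zero_or_pos i with rfl | hi0
    · exact phi_M A Φ hΦ hF hg
    obtain ⟨i', rfl⟩ : ∃ i', i = i' + 1 := ⟨i - 1, by omega⟩
    obtain ⟨g', rfl⟩ := exists_io (Fin.succ_injective (m + 1)) (g := g) (by
      intro p hp
      refine hg p ?_
      rintro k rfl
      by_cases hk : k = 0
      · subst hk; simp
      · obtain ⟨k', rfl⟩ := Fin.exists_succ_eq.2 hk
        exact absurd ⟨Sum.inr k', rfl⟩ hp)
    rw [phi_ios A Φ hΦ]
    refine hΦ _ (Fx_MS_mem (i := i') (by omega)) g' ?_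
    intro q hq
    refine mem_Fx_of_io _ hg q ?_
    intro k hk
    rcases q with q | q
    · cases hk
    · obtain rfl : q.succ = k := Sum.inr.inj hk
      have := hq q rfl
      rw [Fin.val_succ]
      omega
  · intro k l hkl h1 h2 h3 h4 a s hs
    rcases tri k with rfl | rfl | ⟨k', rfl⟩
    · exact absurd rfl h1
    · exact absurd rfl h2
    rcases tri l with rfl | rfl | ⟨l', rfl⟩
    · exact absurd rfl h3
    · exact absurd rfl h4
    have hkl' : k' ≠ -l' := fun e => hkl (by rw [e, sm_neg])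
    rw [← io_ye (Fin.succ_injective (m + 1)) hkl', phi_ios A Φ hΦ]
    exact K0 A Φ hΦ _ hs

lemma ir_SS {n : ℕ} {j : Fin n} {g : symplecticGroup (Fin n) F} (hg : g ∈ Fx F (SS j)) :
    ir F n g ∈ Fx F (SS j.rev) := by
  refine io_mem_Fx _ ?_ hg
  rintro p ⟨h1, h2⟩
  refine Or.inr ⟨sm Fin.rev p, ⟨?_, ?_⟩, sm_rev p⟩
  · intro e
    apply h1
    rw [← sm_rev p, e]; rfl
  · intro e
    apply h2
    rw [← sm_rev p, e]; rfl

lemma ir_MS {n i : ℕ} (hi : i + 1 < n) {g : symplecticGroup (Fin n) F} (hg : g ∈ Fx F (MS n i)) :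
    ir F n g ∈ Fx F (MS n (n - 2 - i)) := by
  refine io_mem_Fx _ ?_ hg
  intro p h1
  refine Or.inr ⟨sm Fin.rev p, ?_, sm_rev p⟩
  intro k hk
  have h2 : p = Sum.inr k.rev := by rw [← sm_rev p, hk]; rfl
  have := h1 k.rev h2
  have h3 := Fin.val_rev k
  have h4 := k.isLt
  omega

/-- the last index -/
def zz (n : ℕ) : Fin (n + 1) ⊕ Fin (n + 1) := Sum.inl (Fin.last n)

lemma sm_rev_zz (n : ℕ) : sm Fin.rev (zz n) = oo n := by
  change Sum.inl (Fin.rev (Fin.last n)) = Sum.inl 0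
  rw [Fin.rev_last]

lemma sm_rev_oo (n : ℕ) : sm Fin.rev (oo n) = zz n := by
  change Sum.inl (Fin.rev 0) = Sum.inl (Fin.last n)
  rw [Fin.rev_zero]

lemma ir_zz {n : ℕ} {g : symplecticGroup (Fin (n + 1)) F} (hg : g ∈ Fx F {zz n}) : ir F (n + 1) g ∈ Fx F {oo n} := by
  refine io_mem_Fx _ ?_ hg
  rintro p rfl
  exact Or.inr ⟨zz n, rfl, sm_rev_zz n⟩

theorem exists_PD (hF : ∃ a : F, a ≠ 0 ∧ a ≠ 1) {m : ℕ} {f : symplecticGroup (Fin (m + 2)) F → H} (A : Am (m + 2) f)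
    (T : ∀ f' : symplecticGroup (Fin (m + 1)) F → H, Am (m + 1) f' →
      ∃ Φ : symplecticGroup (Fin (m + 1)) F →* H, ∀ X ∈ XX F (m + 1), ∀ g ∈ X, Φ g = f' g) :
    ∃ φ ψ, PD f (oo (m + 1)) (zz (m + 1)) φ ψ ∧
      (∀ j : Fin (m + 2), j ≠ 0 → ∀ g ∈ Fx F (SS j), φ g = f g) ∧
      (∀ i, i + 1 < m + 2 → ∀ g ∈ Fx F (MS (m + 2) i), φ g = f g) ∧
      (∀ g ∈ Fx F (SS (0 : Fin (m + 2))), ψ g = f g) := by
  obtain ⟨φ, hφ⟩ := exists_side hF A T
  obtain ⟨χ, hχ⟩ := exists_side hF (A.comp (ir F (m + 2)) rev_XX) T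
  set ψ : symplecticGroup (Fin (m + 2)) F → H := fun g => χ (ir F (m + 2) g) with hψ
  have hlast : (Fin.last (m + 1) : Fin (m + 2)) ≠ 0 := by
    intro e; have := congrArg Fin.val e; simp at this
  have hψmul : MulOn (Fx F {zz (m + 1)}) ψ := by
    intro a ha b hb
    change χ (ir F (m + 2) (a * b)) = _
    rw [map_mul]
    exact hχ.mul _ (ir_zz ha) _ (ir_zz hb)
  have hψS : ∀ j : Fin (m + 2), j ≠ Fin.last (m + 1) → ∀ g ∈ Fx F (SS j), ψ g = f g := by
    intro j hj g hg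
    have h1 : j.rev ≠ 0 := by
      intro e
      apply hj
      rw [← Fin.rev_rev j, e, Fin.rev_zero]
    have := hχ.S j.rev h1 _ (ir_SS hg)
    rwa [ir_ir] at this
  have hψM : ∀ i, i + 1 < m + 2 → ∀ g ∈ Fx F (MS (m + 2) i), ψ g = f g := by
    intro i hi g hg
    have := hχ.M (m + 2 - 2 - i) (by omega) _ (ir_MS hi hg)
    rwa [ir_ir] at this
  have hψc : ∀ k l, k ≠ -l → k ≠ zz (m + 1) → k ≠ -zz (m + 1) → l ≠ zz (m + 1) → l ≠ -zz (m + 1) → ∀ a,
      ∀ s ∈ Fx F (SS (Fin.last (m + 1))), ψ (ye k l a) * f s = f s * ψ (ye k l a) := by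
    intro k l hkl h1 h2 h3 h4 a s hs
    have hs' : ir F (m + 2) s ∈ Fx F (SS (0 : Fin (m + 2))) := by
      have := ir_SS hs
      rwa [Fin.rev_last] at this
    have e1 : ∀ {x y : Fin (m + 2) ⊕ Fin (m + 2)}, x ≠ sm Fin.rev y → sm Fin.rev x ≠ y := by
      intro x y h e
      exact h (by rw [← e, sm_rev])
    have hr : sm Fin.rev (-oo (m + 1)) = -zz (m + 1) := by rw [sm_neg, sm_rev_oo]
    have := hχ.comm (sm Fin.rev k) (sm Fin.rev l) (fun e => hkl (sm_inj Fin.rev_injective (by rw [e, sm_neg])))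
      (e1 (by rw [sm_rev_oo]; exact h1)) (e1 (by rw [hr]; exact h2)) (e1 (by rw [sm_rev_oo]; exact h3))
      (e1 (by rw [hr]; exact h4)) a _ hs'
    simp only [ir_ir] at this
    rw [← io_ye Fin.rev_injective hkl] at this
    exact this
  have hoz : zz (m + 1) ≠ oo (m + 1) := fun e => hlast (Sum.inl.inj e)
  have hoz' : zz (m + 1) ≠ -oo (m + 1) := by
    change Sum.inl _ ≠ Sum.inr _
    simp
  have hw0 : wl F (oo (m + 1)) ∈ Fx F (SS (0 : Fin (m + 2))) := wl_SS _ rfl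
  have hwz : wl F (zz (m + 1)) ∈ Fx F (SS (Fin.last (m + 1))) := wl_SS _ rfl
  have hwc : wl F (oo (m + 1)) * wl F (zz (m + 1)) = wl F (zz (m + 1)) * wl F (oo (m + 1)) := by
    have e1 : zz (m + 1) = sm Fin.succ (zz m) := by
      change Sum.inl _ = Sum.inl _
      rw [Fin.succ_last]
    rw [e1, ← wl_io (Fin.succ_injective (m + 1))]
    exact S_comm hw0 _
  refine ⟨φ, ψ, ⟨by omega, hoz, hoz', hφ.mul, hψmul, ?_, ?_, ?_, hψS 0 hlast.symm _ hw0, hφ.S _ hlast _ hwz, ?_, ?_, hwc,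
    A.comm (Fx_SS_mem _) (Fx_SS_mem _) hw0 hwz hwc⟩, hφ.S, hφ.M, hψS 0 hlast.symm⟩
  · -- agreement
    let K : Subgroup (symplecticGroup (Fin (m + 2)) F) :=
      { carrier := {g | g ∈ Fx F {oo (m + 1)} ∧ g ∈ Fx F {zz (m + 1)} ∧ φ g = ψ g}
        one_mem' := ⟨one_mem _, one_mem _, by rw [hφ.mul.one, hψmul.one]⟩
        mul_mem' := by
          rintro a b ⟨h1, h2, h3⟩ ⟨h4, h5, h6⟩
          exact ⟨mul_mem h1 h4, mul_mem h2 h5, by rw [hφ.mul _ h1 _ h4, hψmul _ h2 _ h5, h3, h6]⟩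
        inv_mem' := by
          rintro a ⟨h1, h2, h3⟩
          exact ⟨inv_mem h1, inv_mem h2, by rw [hφ.mul.inv h1, hψmul.inv h2, h3]⟩ }
    intro k l hkl h1 h2 h3 h4 a
    have key : ye k l a ∈ K := by
      refine gen_lemma (E := {-oo (m + 1), -zz (m + 1)}) ?_ ?_ ?_ hkl (by simp [h1, h3]) (by simp [h2, h4]) a
      · rintro p (rfl | rfl)
        · exact ⟨0, rfl, Or.inl rfl⟩
        · exact ⟨Fin.last (m + 1), rfl, Or.inr rfl⟩
      · intro i hi a
        simp only [Set.mem_insert_iff, Set.mem_singleton_iff, not_or] at hi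
        have hm1 := PD.mem_Fx1 (F := F) (pne i) hi.1 hi.1 a
        have hm2 := PD.mem_Fx1 (F := F) (pne i) hi.2 hi.2 a
        refine ⟨hm1, hm2, ?_⟩
        by_cases hi0 : i = oo (m + 1)
        · subst hi0
          have hM : ye (oo (m + 1)) (oo (m + 1)) a ∈ Fx F (MS (m + 2) 0) :=
            inl_mem_MS (k := 0) (l := 0) (Or.inl rfl) (Or.inl rfl) a
          rw [hφ.M 0 (by omega) _ hM, hψM 0 (by omega) _ hM]
        by_cases hiz : i = zz (m + 1)
        · subst hiz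
          have hM : ye (zz (m + 1)) (zz (m + 1)) a ∈ Fx F (MS (m + 2) m) :=
            inl_mem_MS (k := Fin.last (m + 1)) (l := Fin.last (m + 1)) (Or.inr rfl) (Or.inr rfl) a
          rw [hφ.M m (by omega) _ hM, hψM m (by omega) _ hM]
        obtain ⟨j, hj, hjS⟩ := long_mem (F := F) i
        have hj0 : j ≠ 0 := by
          rintro rfl
          rcases eq_of_bl (p := i) (q := oo (m + 1)) hj with e | e
          · exact hi0 e
          · exact hi.1 e
        have hjz : j ≠ Fin.last (m + 1) := by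
          rintro rfl
          rcases eq_of_bl (p := i) (q := zz (m + 1)) hj with e | e
          · exact hiz e
          · exact hi.2 e
        rw [hφ.S j hj0 _ (hjS a), hψS j hjz _ (hjS a)]
      · intro k hk a
        have hM : ye (Sum.inl ⟨k, by omega⟩) (Sum.inl ⟨k + 1, hk⟩) a ∈ Fx F (MS (m + 2) k) :=
          inl_mem_MS (n := m + 2) (i := k) (Or.inl rfl) (Or.inr rfl) a
        refine ⟨fun p hp => hM p ?_, fun p hp => hM p ?_, by rw [hφ.M k hk _ hM, hψM k hk _ hM]⟩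
        · rw [Set.mem_singleton_iff.1 hp]; intro k' e; cases e
        · rw [Set.mem_singleton_iff.1 hp]; intro k' e; cases e
    exact key.2.2
  · rintro p rfl
    refine hw0 _ ⟨hoz, ?_⟩
    change Sum.inl _ ≠ Sum.inr _
    simp
  · rintro p rfl
    refine hwz _ ⟨hoz.symm, ?_⟩
    change Sum.inl _ ≠ Sum.inr _
    simp
  · intro k l hkl h1 h2 h3 h4 a
    exact hφ.comm k l hkl h3 h1 h4 h2 a _ hw0
  · intro k l hkl h1 h2 h3 h4 a
    exact hψc k l hkl h3 h1 h4 h2 a _ hwz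

/-- generation of the stabilizer of the last vector -/
lemma Fx_zz_le {n : ℕ} {K : Subgroup (symplecticGroup (Fin (n + 1)) F)}
    (h : ∀ i j, i ≠ -j → i ≠ -zz n → j ≠ -zz n → ∀ a, ye i j a ∈ K) : Fx F {zz n} ≤ K := by
  intro g hg
  have h1 : Fx F {oo n} ≤ K.comap (ir F (n + 1)) := by
    refine Fx_oo_le fun i j hij hi hj a => ?_
    rw [mem_comap, io_ye _ hij]
    have e1 : ∀ {x : Fin (n + 1) ⊕ Fin (n + 1)}, x ≠ -oo n → sm Fin.rev x ≠ -zz n := by
      intro x hx e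
      apply hx
      rw [← sm_rev x, e, sm_neg, sm_rev_zz]
    exact h _ _ (fun e => hij (sm_inj Fin.rev_injective (by rw [e, sm_neg]))) (e1 hi) (e1 hj) a
  have := h1 (ir_zz hg)
  rw [mem_comap, ir_ir] at this
  exact this

/-- the inductive step -/
theorem step (hF : ∃ a : F, a ≠ 0 ∧ a ≠ 1) {m : ℕ} {f : symplecticGroup (Fin (m + 2)) F → H} (A : Am (m + 2) f)
    (T : ∀ f' : symplecticGroup (Fin (m + 1)) F → H, Am (m + 1) f' →
      ∃ Φ : symplecticGroup (Fin (m + 1)) F →* H, ∀ X ∈ XX F (m + 1), ∀ g ∈ X, Φ g = f' g) :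
    ∃ Φ : symplecticGroup (Fin (m + 2)) F →* H, ∀ X ∈ XX F (m + 2), ∀ g ∈ X, Φ g = f g := by
  obtain ⟨φ, ψ, D, hS, hM, hS0⟩ := exists_PD hF A T
  set h := hh f (oo (m + 1)) φ with hh'
  have R1 : SpR (eps F) h := D.spR
  have hc : 2 ≤ Fintype.card (Fin (m + 2)) := by simp
  have R2 := spr (F := F) hc
  set y : Fin (m + 2) ⊕ Fin (m + 2) → Fin (m + 2) ⊕ Fin (m + 2) → F → H × symplecticGroup (Fin (m + 2)) F :=
    fun i j a => (h i j a, ye i j a) with hy
  have R : SpR (eps F) y :=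
    { ne := swap_ne'
      two := R1.two
      eps := eps_sq
      eps_neg := eps_neg'
      symm := fun i j a => Prod.ext (R1.symm i j a) (R2.symm i j a)
      add := fun hij a b => Prod.ext (R1.add hij a b) (R2.add hij a b)
      c1 := fun e1 e2 e3 e4 e5 e6 a b => Prod.ext (R1.c1 e1 e2 e3 e4 e5 e6 a b) (R2.c1 e1 e2 e3 e4 e5 e6 a b)
      c2 := fun e1 e2 a b => Prod.ext (R1.c2 e1 e2 a b) (R2.c2 e1 e2 a b)
      c3 := fun e1 e2 a b => Prod.ext (R1.c3 e1 e2 a b) (R2.c3 e1 e2 a b)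
      c4 := fun e1 e2 e3 e4 e5 e6 a b => Prod.ext (R1.c4 e1 e2 e3 e4 e5 e6 a b) (R2.c4 e1 e2 e3 e4 e5 e6 a b) }
  set σ : H × symplecticGroup (Fin (m + 2)) F →* symplecticGroup (Fin (m + 2)) F := MonoidHom.snd _ _ with hσ
  have Act : SpAct (eps F) y (natRep.comp σ) := spAct σ (fun _ _ _ _ => rfl)
  have hne : zz (m + 1) ≠ oo (m + 1) := D.ne1
  -- values on long root elements
  have hlong : ∀ (i : Fin (m + 2) ⊕ Fin (m + 2)) (a : F), h i i a = f (ye i i a) := by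
    intro i a
    obtain ⟨j, hj, hjS⟩ := long_mem (F := F) i
    by_cases hj0 : j = 0
    · subst hj0
      have e1 : i ≠ -zz (m + 1) := by
        rintro rfl
        rw [bl_neg] at hj
        change m + 1 = 0 at hj
        omega
      rw [hh', D.hh_eq (x := zz (m + 1)) (Or.inr (Or.inr (Or.inl rfl))) (pne i) e1 e1]
      unfold four
      rw [if_neg D.ne1, if_neg D.ne2, if_pos rfl]
      exact hS0 _ (hjS a)
    · have e1 : i ≠ -oo (m + 1) := by
        rintro rfl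
        rw [bl_neg] at hj
        apply hj0
        apply Fin.ext
        rw [← hj]; rfl
      rw [hh', D.hh_eq (x := oo (m + 1)) (Or.inl rfl) (pne i) e1 e1]
      unfold four
      rw [if_pos rfl]
      exact hS j hj0 _ (hjS a)
  -- rank one groups
  have hL : ∀ i, ∀ g ∈ XG y i i ⊔ XG y (-i) (-i), (natRep.comp σ) g = 1 → g = 1 := by
    intro i g hg h1
    obtain ⟨j, hj, hjS⟩ := long_mem (F := F) i
    have hfj := A.mulOn (Fx_SS_mem j)
    let K : Subgroup (H × symplecticGroup (Fin (m + 2)) F) :=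
      { carrier := {x | x.2 ∈ Fx F (SS j) ∧ x.1 = f x.2}
        one_mem' := ⟨one_mem _, by rw [Prod.fst_one, Prod.snd_one, hfj.one]⟩
        mul_mem' := by
          rintro a b ⟨h1, h2⟩ ⟨h3, h4⟩
          exact ⟨mul_mem h1 h3, by rw [Prod.fst_mul, Prod.snd_mul, hfj _ h1 _ h3, h2, h4]⟩
        inv_mem' := by
          rintro a ⟨h1, h2⟩
          exact ⟨inv_mem h1, by rw [Prod.fst_inv, Prod.snd_inv, hfj.inv h1, h2]⟩ }
    have hle : XG y i i ⊔ XG y (-i) (-i) ≤ K := by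
      unfold XG
      refine sup_le ((closure_le _).2 ?_) ((closure_le _).2 ?_)
      · rintro _ ⟨a, rfl⟩
        exact ⟨hjS a, hlong i a⟩
      · rintro _ ⟨a, rfl⟩
        refine ⟨?_, hlong (-i) a⟩
        obtain ⟨j', hj', hjS'⟩ := long_mem (F := F) (-i)
        rw [bl_neg] at hj'
        have : j = j' := Fin.ext (by rw [← hj, hj'])
        rw [this]; exact hjS' a
    have h2 : g.2 = 1 := natRep_injective (by rw [map_one]; exact h1)
    have h3 := (hle hg).2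
    rw [h2, hfj.one] at h3
    exact Prod.ext h3 h2
  set Γ := gp (XG y) (fun _ _ => True) with hΓ
  have hinj : Function.Injective (σ.comp Γ.subtype) := by
    rw [injective_iff_map_eq_one]
    rintro ⟨g, hg⟩ h1
    apply Subtype.ext
    refine sp_inj_gen R Act hL hg ?_
    have : σ g = 1 := h1
    rw [MonoidHom.comp_apply, this, map_one]
  have hyΓ : ∀ {i j}, i ≠ -j → ∀ a, y i j a ∈ Γ := fun hij a => X_le_gp hij trivial (SpR.y_mem _ _ _)
  have hsurj : Function.Surjective (σ.comp Γ.subtype) := by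
    rw [← MonoidHom.range_eq_top, ← top_le_iff, ← yeG_top]
    unfold yeG
    rw [closure_le]
    rintro _ ⟨i, j, hij, a, rfl⟩
    exact ⟨⟨y i j a, hyΓ hij a⟩, rfl⟩
  let e := MulEquiv.ofBijective (σ.comp Γ.subtype) ⟨hinj, hsurj⟩
  let Φ : symplecticGroup (Fin (m + 2)) F →* H := ((MonoidHom.fst H _).comp Γ.subtype).comp e.symm.toMonoidHom
  have hΦ : ∀ {i j}, i ≠ -j → ∀ a, Φ (ye i j a) = h i j a := by
    intro i j hij a
    have e1 : e.symm (ye i j a) = ⟨y i j a, hyΓ hij a⟩ := by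
      rw [MulEquiv.symm_apply_eq]; rfl
    change ((e.symm (ye i j a) : Γ) : H × symplecticGroup (Fin (m + 2)) F).1 = _
    rw [e1]
  -- agreement with `φ` and `ψ`
  have hΦφ : ∀ g ∈ Fx F {oo (m + 1)}, Φ g = φ g := by
    have hs : {g : symplecticGroup (Fin (m + 2)) F | ∃ i j, i ≠ -j ∧ i ≠ -oo (m + 1) ∧ j ≠ -oo (m + 1) ∧ ∃ a, ye i j a = g} ⊆
        (Fx F {oo (m + 1)} : Set (symplecticGroup (Fin (m + 2)) F)) := by
      rintro _ ⟨i, j, hij, h1, h2, a, rfl⟩
      exact PD.mem_Fx1 hij h1 h2 a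
    have hΦm : MulOn (Fx F {oo (m + 1)}) (fun g => Φ g) := fun a _ b _ => map_mul Φ a b
    have key := hΦm.eq_on D.mp hs (by
      rintro _ ⟨i, j, hij, h1, h2, a, rfl⟩
      change Φ (ye i j a) = _
      rw [hΦ hij, hh', D.hh_eq (x := oo (m + 1)) (Or.inl rfl) hij h1 h2]
      unfold four
      rw [if_pos rfl])
    intro g hg
    have hle : Fx F {oo (m + 1)} ≤ Subgroup.closure {g : symplecticGroup (Fin (m + 2)) F | ∃ i j, i ≠ -j ∧
        i ≠ -oo (m + 1) ∧ j ≠ -oo (m + 1) ∧ ∃ a, ye i j a = g} :=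
      Fx_oo_le (fun i j hij h1 h2 a => Subgroup.subset_closure ⟨i, j, hij, h1, h2, a, rfl⟩)
    exact key g (hle hg)
  have hΦψ : ∀ g ∈ Fx F {zz (m + 1)}, Φ g = ψ g := by
    have hs : {g : symplecticGroup (Fin (m + 2)) F | ∃ i j, i ≠ -j ∧ i ≠ -zz (m + 1) ∧ j ≠ -zz (m + 1) ∧ ∃ a, ye i j a = g} ⊆
        (Fx F {zz (m + 1)} : Set (symplecticGroup (Fin (m + 2)) F)) := by
      rintro _ ⟨i, j, hij, h1, h2, a, rfl⟩
      exact PD.mem_Fx1 hij h1 h2 a
    have hΦm : MulOn (Fx F {zz (m + 1)}) (fun g => Φ g) := fun a _ b _ => map_mul Φ a b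
    have key := hΦm.eq_on D.mq hs (by
      rintro _ ⟨i, j, hij, h1, h2, a, rfl⟩
      change Φ (ye i j a) = _
      rw [hΦ hij, hh', D.hh_eq (x := zz (m + 1)) (Or.inr (Or.inr (Or.inl rfl))) hij h1 h2]
      unfold four
      rw [if_neg D.ne1, if_neg D.ne2, if_pos rfl])
    intro g hg
    have hle : Fx F {zz (m + 1)} ≤ Subgroup.closure {g : symplecticGroup (Fin (m + 2)) F | ∃ i j, i ≠ -j ∧
        i ≠ -zz (m + 1) ∧ j ≠ -zz (m + 1) ∧ ∃ a, ye i j a = g} :=
      Fx_zz_le (fun i j hij h1 h2 a => Subgroup.subset_closure ⟨i, j, hij, h1, h2, a, rfl⟩)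
    exact key g (hle hg)
  refine ⟨Φ, ?_⟩
  rintro X (⟨j, rfl⟩ | ⟨i, hi, rfl⟩) g hg
  · by_cases hj0 : j = 0
    · subst hj0
      rw [hΦψ g (by
        rintro p rfl
        refine hg _ ⟨hne, ?_⟩
        change Sum.inl _ ≠ Sum.inr _
        simp)]
      exact hS0 g hg
    · rw [hΦφ g (by
        rintro p rfl
        refine hg _ ⟨?_, ?_⟩
        · intro e; exact hj0 (Sum.inl.inj e).symm
        · change Sum.inl _ ≠ Sum.inr _
          simp)]
      exact hS j hj0 g hg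
  · rw [hΦφ g (by
      rintro p rfl
      exact hg _ (by intro k e; cases e))]
    exact hM i hi g hg

/-- **the completion theorem**: existence -/
theorem exists_hom (hF : ∃ a : F, a ≠ 0 ∧ a ≠ 1) : ∀ (n : ℕ) (f : symplecticGroup (Fin (n + 1)) F → H), Am (n + 1) f →
    ∃ Φ : symplecticGroup (Fin (n + 1)) F →* H, ∀ X ∈ XX F (n + 1), ∀ g ∈ X, Φ g = f g := by
  intro n
  induction n with
  | zero =>
    intro f A
    have htop : ∀ g : symplecticGroup (Fin 1) F, g ∈ Fx F (SS (0 : Fin 1)) := by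
      rintro g (p | p) ⟨h1, h2⟩
      · exact absurd (by rw [Subsingleton.elim p 0]) h1
      · exact absurd (by rw [Subsingleton.elim p 0]) h2
    have h := A.mulOn (Fx_SS_mem 0)
    exact ⟨MonoidHom.mk' f (fun a b => h a (htop a) b (htop b)), fun _ _ _ _ => rfl⟩
  | succ n ih => intro f A; exact step hF A ih

/-- uniqueness -/
theorem hom_unique {n : ℕ} {Φ Ψ : symplecticGroup (Fin n) F →* H} (h : ∀ X ∈ XX F n, ∀ g ∈ X, Φ g = Ψ g) : Φ = Ψ := by
  have key : (⊤ : Subgroup (symplecticGroup (Fin n) F)) ≤ Φ.eqLocus Ψ := by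
    rw [← yeG_top]
    unfold yeG
    rw [closure_le]
    rintro _ ⟨i, j, hij, a, rfl⟩
    refine gen_lemma (E := ∅) (by simp) ?_ ?_ hij (by simp) (by simp) a
    · intro i _ a
      obtain ⟨j, -, hj⟩ := long_mem (F := F) i
      exact h _ (Fx_SS_mem j) _ (hj a)
    · intro k hk a
      exact h _ (Fx_MS_mem hk) _ (inl_mem_MS (n := n) (i := k) (Or.inl rfl) (Or.inr rfl) a)
  exact MonoidHom.ext fun g => key (mem_top g)

end Cfsg.Agent.H93.SpC
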