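import Cfsg.Agent.H93.SpC.Kap

set_option autoImplicit false
set_option linter.unusedSectionVars false

/-!
Steinberg relations from four vector stabilizers.
-/

namespace Cfsg.Agent.H93.SpC

open Matrix Subgroup
open Cfsg.Agent.ClassSp Cfsg.Agent.Stb
open scoped commutatorElement

attribute [local instance] sumNeg

variable {F : Type*} [Field F] {H : Type*} [Group H] {n : ℕ}

lemma pne (p : Fin n ⊕ Fin n) : p ≠ -p := Stb.ne' (swap_ne' (l := Fin n)) p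

/-- Weyl elements of the long roots -/
noncomputable def wl (F : Type*) [Field F] (p : Fin n ⊕ Fin n) : symplecticGroup (Fin n) F :=
  ye (-p) (-p) (eps F p * eps F p * 1⁻¹) * ye p p 1 * ye (-p) (-p) (eps F p * eps F p * 1⁻¹)

lemma spA (F : Type*) [Field F] : SpAct (eps F) (ye : Fin n ⊕ Fin n → Fin n ⊕ Fin n → F → symplecticGroup (Fin n) F)
    (natRep.comp (MonoidHom.id _)) := spAct (MonoidHom.id _) (fun _ _ _ _ => rfl)

lemma wl_swap (hn : 2 ≤ n) (p : Fin n ⊕ Fin n) :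
    wl F p ∈ Swap (natRep.comp (MonoidHom.id (symplecticGroup (Fin n) F))) p p :=
  n_swap (spr (F := F) (by simpa using hn)) (spA F) (pne p) one_ne_zero

lemma rf_pp (p q : Fin n ⊕ Fin n) : rf p p q = if q = p then -p else if q = -p then p else q := by
  unfold rf
  by_cases h1 : q = p
  · simp [h1]
  · by_cases h2 : q = -p
    · simp [h2]
    · simp [h1, h2]

lemma wl_conj (hn : 2 ≤ n) (p : Fin n ⊕ Fin n) {k l : Fin n ⊕ Fin n} (hkl : k ≠ -l) (a : F) :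
    ∃ a', wl F p * ye k l a * (wl F p)⁻¹ = ye (rf p p k) (rf p p l) a' := by
  obtain ⟨a', h⟩ := swap_conj (spr (F := F) (by simpa using hn)) (spA F) (pne p) (wl_swap hn p) hkl a
  exact ⟨a', natRep_injective h⟩

lemma wl_ee (hn : 2 ≤ n) (p : Fin n ⊕ Fin n) : ∃ c : F, wl F p ⋆ ee (-p) = c • ee p := by
  obtain ⟨c, h⟩ := wl_swap (F := F) hn p (-p)
  refine ⟨c, ?_⟩
  rw [rf_pp, if_neg (pne p).symm, if_pos rfl] at h
  exact h

lemma wl_Fx (hn : 2 ≤ n) (p : Fin n ⊕ Fin n) {g : symplecticGroup (Fin n) F} (hg : g ∈ Fx F {-p}) :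
    wl F p * g * (wl F p)⁻¹ ∈ Fx F {p} := by
  rintro q rfl
  obtain ⟨c, hc⟩ := wl_ee (F := F) hn q
  have hc0 : c ≠ 0 := by
    rintro rfl
    rw [zero_smul] at hc
    exact ee_ne (F := F) (-q) (st_inj (wl F q) (by rw [hc, st_zero]))
  have h1 : (wl F q)⁻¹ ⋆ ee q = c⁻¹ • ee (-q) := by
    apply st_inj (wl F q)
    rw [st_inv', st_smul, hc, smul_smul, inv_mul_cancel₀ hc0, one_smul]
  rw [st_mul, st_mul, h1, st_smul, hg _ rfl, st_smul, hc, smul_smul, inv_mul_cancel₀ hc0, one_smul]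

lemma rf_ne1 {p k : Fin n ⊕ Fin n} (h : k ≠ p) : rf p p k ≠ -p := by
  rw [rf_pp, if_neg h]
  split_ifs with h1
  · exact pne p
  · exact h1

lemma rf_ne2 {p q k : Fin n ⊕ Fin n} (h1 : q ≠ p) (h2 : q ≠ -p) (h : k ≠ q) : rf p p k ≠ q := by
  rw [rf_pp]
  split_ifs with h3 h4
  · exact h2.symm
  · exact h1.symm
  · exact h

lemma rf_id {p k : Fin n ⊕ Fin n} (h1 : k ≠ p) (h2 : k ≠ -p) : rf p p k = k := by
  rw [rf_pp, if_neg h1, if_neg h2]

/-- data on the stabilizers of two vectors -/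
structure PD (f : symplecticGroup (Fin n) F → H) (p q : Fin n ⊕ Fin n) (φ ψ : symplecticGroup (Fin n) F → H) : Prop where
  hn : 2 ≤ n
  ne1 : q ≠ p
  ne2 : q ≠ -p
  mp : MulOn (Fx F {p}) φ
  mq : MulOn (Fx F {q}) ψ
  eq : ∀ k l, k ≠ -l → k ≠ -p → l ≠ -p → k ≠ -q → l ≠ -q → ∀ a, φ (ye k l a) = ψ (ye k l a)
  wp : wl F p ∈ Fx F {q}
  wq : wl F q ∈ Fx F {p}
  fp : ψ (wl F p) = f (wl F p)
  fq : φ (wl F q) = f (wl F q)
  cp : ∀ k l, k ≠ -l → k ≠ -p → l ≠ -p → k ≠ p → l ≠ p → ∀ a, φ (ye k l a) * f (wl F p) = f (wl F p) * φ (ye k l a)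
  cq : ∀ k l, k ≠ -l → k ≠ -q → l ≠ -q → k ≠ q → l ≠ q → ∀ a, ψ (ye k l a) * f (wl F q) = f (wl F q) * ψ (ye k l a)
  cw : wl F p * wl F q = wl F q * wl F p
  cf : f (wl F p) * f (wl F q) = f (wl F q) * f (wl F p)

/-- the map on the stabilizer of the opposite vector -/
noncomputable def opp (f : symplecticGroup (Fin n) F → H) (p : Fin n ⊕ Fin n) (φ : symplecticGroup (Fin n) F → H)
    (g : symplecticGroup (Fin n) F) : H :=
  (f (wl F p))⁻¹ * φ (wl F p * g * (wl F p)⁻¹) * f (wl F p)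

lemma nn {p q : Fin n ⊕ Fin n} (h : p ≠ -q) : q ≠ -p := fun e => h (by rw [e, neg_neg])

namespace PD

variable {f : symplecticGroup (Fin n) F → H} {p q : Fin n ⊕ Fin n} {φ ψ : symplecticGroup (Fin n) F → H} (D : PD f p q φ ψ)

include D

lemma symm : PD f q p ψ φ where
  hn := D.hn
  ne1 := D.ne1.symm
  ne2 := nn D.ne2
  mp := D.mq
  mq := D.mp
  eq := fun k l h1 h2 h3 h4 h5 a => (D.eq k l h1 h4 h5 h2 h3 a).symm
  wp := D.wq
  wq := D.wp
  fp := D.fq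
  fq := D.fp
  cp := D.cq
  cq := D.cp
  cw := D.cw.symm
  cf := D.cf.symm

lemma mp' : MulOn (Fx F {-p}) (opp f p φ) := by
  intro a ha b hb
  unfold opp
  have e : wl F p * (a * b) * (wl F p)⁻¹ = (wl F p * a * (wl F p)⁻¹) * (wl F p * b * (wl F p)⁻¹) := by group
  rw [e, D.mp _ (wl_Fx D.hn p ha) _ (wl_Fx D.hn p hb)]; group

/-- `p` and `-p` -/
lemma c1 {k l : Fin n ⊕ Fin n} (hkl : k ≠ -l) (h1 : k ≠ p) (h2 : l ≠ p) (h3 : k ≠ -p) (h4 : l ≠ -p) (a : F) :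
    opp f p φ (ye k l a) = φ (ye k l a) := by
  have hw : wl F p * ye k l a = ye k l a * wl F p := by
    have h5 : -p ≠ -l := fun e => h2 (neg_inj.1 e).symm
    have h6 : -p ≠ -k := fun e => h1 (neg_inj.1 e).symm
    have R := spr (F := F) (l := Fin n) (by simpa using D.hn)
    have e1 : ∀ b : F, ye p p b * ye k l a = ye k l a * ye p p b := fun b =>
      commutatorElement_eq_one_iff_mul_comm.1 (R.c4 (pne p) hkl h3 h3 h4 h4 b a)
    have e2 : ∀ b : F, ye (-p) (-p) b * ye k l a = ye k l a * ye (-p) (-p) b := fun b =>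
      commutatorElement_eq_one_iff_mul_comm.1 (R.c4 (pne (-p)) hkl (by rw [neg_neg]; exact h1) (by rw [neg_neg]; exact h1)
        (by rw [neg_neg]; exact h2) (by rw [neg_neg]; exact h2) b a)
    unfold wl
    rw [mul_assoc, e2, ← mul_assoc, mul_assoc _ (ye p p 1), e1, ← mul_assoc, e2]; simp only [mul_assoc]
  unfold opp
  rw [hw, mul_inv_cancel_right, mul_assoc, D.cp k l hkl h3 h4 h1 h2 a, inv_mul_cancel_left]

/-- `-p` and `q` -/
lemma c2 {k l : Fin n ⊕ Fin n} (hkl : k ≠ -l) (h1 : k ≠ p) (h2 : l ≠ p) (h3 : k ≠ -q) (h4 : l ≠ -q) (a : F) :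
    opp f p φ (ye k l a) = ψ (ye k l a) := by
  obtain ⟨a', ha'⟩ := wl_conj (F := F) D.hn p hkl a
  have hne1 : -q ≠ p := fun e => D.ne2 (by rw [← e, neg_neg])
  have hne2 : -q ≠ -p := fun e => D.ne1 (neg_inj.1 e)
  have hkl' : rf p p k ≠ -rf p p l := rf_ne_neg (swap_ne' (l := Fin n)) (pne p) hkl
  have hye : ye k l a ∈ Fx F {q} := ye_mem_Fx hkl a (fun e => h3 (by rw [← Set.mem_singleton_iff.1 e, neg_neg]))
    (fun e => h4 (by rw [← Set.mem_singleton_iff.1 e, neg_neg]))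
  unfold opp
  rw [ha', D.eq _ _ hkl' (rf_ne1 h1) (rf_ne1 h2) (rf_ne2 hne1 hne2 h3) (rf_ne2 hne1 hne2 h4), ← ha',
    D.mq.conj D.wp hye, D.fp]
  group

/-- `-p` and `-q` -/
lemma c3 {k l : Fin n ⊕ Fin n} (hkl : k ≠ -l) (h1 : k ≠ p) (h2 : l ≠ p) (h3 : k ≠ q) (h4 : l ≠ q) (a : F) :
    opp f p φ (ye k l a) = opp f q ψ (ye k l a) := by
  obtain ⟨a', ha'⟩ := wl_conj (F := F) D.hn p hkl a
  have hkl' : rf p p k ≠ -rf p p l := rf_ne_neg (swap_ne' (l := Fin n)) (pne p) hkl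
  have e1 := D.symm.c2 (k := rf p p k) (l := rf p p l) hkl' (rf_ne2 D.ne1 D.ne2 h3) (rf_ne2 D.ne1 D.ne2 h4)
    (rf_ne1 h1) (rf_ne1 h2) a'
  -- `e1 : opp f q ψ (ye (rf p p k) (rf p p l) a') = φ (…)`
  have hye : ye k l a ∈ Fx F {-q} := ye_mem_Fx hkl a
    (fun e => h3 (neg_inj.1 (Set.mem_singleton_iff.1 e))) (fun e => h4 (neg_inj.1 (Set.mem_singleton_iff.1 e)))
  have hye' := wl_Fx D.hn q hye
  have e2 : opp f p φ (ye k l a) = (f (wl F p))⁻¹ * opp f q ψ (wl F p * ye k l a * (wl F p)⁻¹) * f (wl F p) := by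
    unfold opp at e1 ⊢
    rw [ha', e1]
  rw [e2]
  unfold opp
  have e3 : wl F q * (wl F p * ye k l a * (wl F p)⁻¹) * (wl F q)⁻¹ =
      wl F p * (wl F q * ye k l a * (wl F q)⁻¹) * (wl F p)⁻¹ := by
    have h5 : (wl F p)⁻¹ * (wl F q)⁻¹ = (wl F q)⁻¹ * (wl F p)⁻¹ := by
      rw [← _root_.mul_inv_rev, ← _root_.mul_inv_rev, D.cw]
    calc wl F q * (wl F p * ye k l a * (wl F p)⁻¹) * (wl F q)⁻¹
        = (wl F q * wl F p) * ye k l a * ((wl F p)⁻¹ * (wl F q)⁻¹) := by group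
      _ = (wl F p * wl F q) * ye k l a * ((wl F q)⁻¹ * (wl F p)⁻¹) := by rw [h5, D.cw]
      _ = _ := by group
  rw [e3, D.mq.conj D.wp hye', D.fp]
  have h6 : (f (wl F p))⁻¹ * (f (wl F q))⁻¹ * f (wl F p) = (f (wl F q))⁻¹ := by
    rw [mul_assoc, inv_mul_eq_iff_eq_mul, inv_mul_eq_iff_eq_mul, ← mul_assoc, ← D.cf, mul_inv_cancel_right]
  have h7 : (f (wl F p))⁻¹ * f (wl F q) * f (wl F p) = f (wl F q) := by
    rw [mul_assoc, inv_mul_eq_iff_eq_mul, D.cf]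
  calc (f (wl F p))⁻¹ * ((f (wl F q))⁻¹ * (f (wl F p) * ψ (wl F q * ye k l a * (wl F q)⁻¹) * (f (wl F p))⁻¹) * f (wl F q)) *
        f (wl F p)
      = ((f (wl F p))⁻¹ * (f (wl F q))⁻¹ * f (wl F p)) * ψ (wl F q * ye k l a * (wl F q)⁻¹) *
        ((f (wl F p))⁻¹ * f (wl F q) * f (wl F p)) := by group
    _ = _ := by rw [h6, h7]

/-- the four maps -/
noncomputable def _root_.Cfsg.Agent.H93.SpC.four (f : symplecticGroup (Fin n) F → H) (p q : Fin n ⊕ Fin n)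
    (φ ψ : symplecticGroup (Fin n) F → H) (x : Fin n ⊕ Fin n) : symplecticGroup (Fin n) F → H :=
  if x = p then φ else if x = -p then opp f p φ else if x = q then ψ else opp f q ψ

/-- the root elements -/
noncomputable def _root_.Cfsg.Agent.H93.SpC.hh (f : symplecticGroup (Fin n) F → H) (p : Fin n ⊕ Fin n)
    (φ : symplecticGroup (Fin n) F → H) (k l : Fin n ⊕ Fin n) (a : F) : H :=
  if k = -l then 1 else if k = -p ∨ l = -p then opp f p φ (ye k l a) else φ (ye k l a)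

lemma hh_eq {x : Fin n ⊕ Fin n} (hx : x = p ∨ x = -p ∨ x = q ∨ x = -q) {k l : Fin n ⊕ Fin n} (hkl : k ≠ -l)
    (h1 : k ≠ -x) (h2 : l ≠ -x) (a : F) : hh f p φ k l a = four f p q φ ψ x (ye k l a) := by
  unfold hh four
  rw [if_neg hkl]
  have hlk : l ≠ -k := nn hkl
  have opp' : ∀ {r : Fin n ⊕ Fin n}, (k = -r ∨ l = -r) → k ≠ r ∧ l ≠ r := by
    rintro r (e | e)
    · refine ⟨by rw [e]; exact (pne r).symm, fun e' => hlk ?_⟩
      rw [e, e', neg_neg]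
    · refine ⟨fun e' => hkl ?_, by rw [e]; exact (pne r).symm⟩
      rw [e, e', neg_neg]
  rcases hx with rfl | rfl | rfl | rfl
  · rw [if_pos rfl, if_neg (by push Not; exact ⟨h1, h2⟩)]
  · rw [neg_neg] at h1 h2
    rw [if_neg (pne p).symm, if_pos rfl]
    split_ifs with h
    · rfl
    · push Not at h
      exact (D.c1 hkl h1 h2 h.1 h.2 a).symm
  · rw [if_neg D.ne1, if_neg D.ne2, if_pos rfl]
    split_ifs with h
    · obtain ⟨h3, h4⟩ := opp' h
      exact D.c2 hkl h3 h4 h1 h2 a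
    · push Not at h
      exact D.eq k l hkl h.1 h.2 h1 h2 a
  · rw [neg_neg] at h1 h2
    rw [if_neg (show ¬ (-q = p) from fun e => D.ne2 (by rw [← e, neg_neg])),
      if_neg (show ¬ (-q = -p) from fun e => D.ne1 (neg_inj.1 e)), if_neg (pne q).symm]
    split_ifs with h
    · obtain ⟨h3, h4⟩ := opp' h
      exact D.c3 hkl h3 h4 h1 h2 a
    · push Not at h
      exact (D.symm.c2 hkl h1 h2 h.1 h.2 a).symm

lemma four_mul {x : Fin n ⊕ Fin n} (hx : x = p ∨ x = -p ∨ x = q ∨ x = -q) : MulOn (Fx F {x}) (four f p q φ ψ x) := by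
  unfold four
  rcases hx with rfl | rfl | rfl | rfl
  · rw [if_pos rfl]; exact D.mp
  · rw [if_neg (pne p).symm, if_pos rfl]; exact D.mp'
  · rw [if_neg D.ne1, if_neg D.ne2, if_pos rfl]; exact D.mq
  · rw [if_neg (show ¬ (-q = p) from fun e => D.ne2 (by rw [← e, neg_neg])),
      if_neg (show ¬ (-q = -p) from fun e => D.ne1 (neg_inj.1 e)), if_neg (pne q).symm]
    exact D.symm.mp'

omit D in
lemma mem_Fx1 {x k l : Fin n ⊕ Fin n} (hkl : k ≠ -l) (h1 : k ≠ -x) (h2 : l ≠ -x) (a : F) : ye k l a ∈ Fx F {x} :=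
  ye_mem_Fx hkl a (fun e => h1 (by rw [← Set.mem_singleton_iff.1 e, neg_neg]))
    (fun e => h2 (by rw [← Set.mem_singleton_iff.1 e, neg_neg]))

omit D in
lemma _root_.Cfsg.Agent.H93.SpC.MulOn.commutator {G K' : Type*} [Group G] [Group K'] {K : Subgroup G} {χ : G → K'} (h : MulOn K χ)
    {a b : G} (ha : a ∈ K) (hb : b ∈ K) : χ ⁅a, b⁆ = ⁅χ a, χ b⁆ := by
  rw [commutatorElement_def, commutatorElement_def, h _ (mul_mem (mul_mem ha hb) (inv_mem ha)) _ (inv_mem hb), h.conj ha hb,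
    h.inv hb]

/-- choice of the stabilizer -/
lemma pick (i k j : Fin n ⊕ Fin n) (hik : i ≠ -k) : ∃ x, (x = p ∨ x = -p ∨ x = q ∨ x = -q) ∧ j ≠ -x ∧ -j ≠ -x ∧ i ≠ -x ∧ k ≠ -x := by
  have hki : k ≠ -i := nn hik
  have sub : ∀ r : Fin n ⊕ Fin n, j ≠ -r → j ≠ r → ∃ x, (x = r ∨ x = -r) ∧ j ≠ -x ∧ -j ≠ -x ∧ i ≠ -x ∧ k ≠ -x := by
    intro r h1 h2
    by_cases h : i = -r ∨ k = -r
    · refine ⟨-r, Or.inr rfl, by rw [neg_neg]; exact h2, fun e => h1 (neg_inj.1 e), ?_, ?_⟩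
      · rw [neg_neg]
        rcases h with e | e
        · rw [e]; exact (pne r).symm
        · intro e'; exact hik (by rw [e, e', neg_neg])
      · rw [neg_neg]
        rcases h with e | e
        · intro e'; exact hki (by rw [e, e', neg_neg])
        · rw [e]; exact (pne r).symm
    · push Not at h
      exact ⟨r, Or.inl rfl, h1, fun e => h2 (neg_inj.1 e), h.1, h.2⟩
  by_cases h : j = p ∨ j = -p
  · have h1 : j ≠ -q ∧ j ≠ q := by
      rcases h with rfl | rfl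
      · exact ⟨nn D.ne2, D.ne1.symm⟩
      · exact ⟨fun e => D.ne1 (neg_inj.1 e).symm, D.ne2.symm⟩
    obtain ⟨x, hx, hr⟩ := sub q h1.1 h1.2
    exact ⟨x, by tauto, hr⟩
  · push Not at h
    obtain ⟨x, hx, hr⟩ := sub p h.2 h.1
    exact ⟨x, by tauto, hr⟩

/-- **the Steinberg relations** -/
theorem spR : SpR (eps F) (hh f p φ) where
  ne := swap_ne'
  two := (spr (F := F) (l := Fin n) (by simpa using D.hn)).two
  eps := eps_sq
  eps_neg := eps_neg'
  symm i j a := by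
    have h := (spr (F := F) (l := Fin n) (by simpa using D.hn)).symm i j a
    unfold hh
    rw [h]
    by_cases h1 : i = -j
    · rw [if_pos h1, if_pos (by rw [h1, neg_neg])]
    · rw [if_neg h1, if_neg (nn h1)]
      simp only [or_comm]
  add {i j} hij a b := by
    obtain ⟨x, hx, h1, h2, h3, h4⟩ := D.pick i j i hij
    rw [D.hh_eq hx hij h3 h4, D.hh_eq hx hij h3 h4, D.hh_eq hx hij h3 h4,
      ← D.four_mul hx _ (mem_Fx1 hij h3 h4 a) _ (mem_Fx1 hij h3 h4 b), (spr (F := F) (l := Fin n) (by simpa using D.hn)).add hij]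
  c1 {i j k} e1 e2 e3 e4 e5 e6 a b := by
    obtain ⟨x, hx, h1, h2, h3, h4⟩ := D.pick i k j e6
    have hjk : -j ≠ -k := fun e => e3 (neg_inj.1 e)
    rw [D.hh_eq hx e2 h3 h1, D.hh_eq hx hjk h2 h4, D.hh_eq hx e6 h3 h4,
      ← (D.four_mul hx).commutator (mem_Fx1 e2 h3 h1 a) (mem_Fx1 hjk h2 h4 b),
      (spr (F := F) (l := Fin n) (by simpa using D.hn)).c1 e1 e2 e3 e4 e5 e6]
  c2 {i j} e1 e2 a b := by
    obtain ⟨x, hx, h1, h2, h3, h4⟩ := D.pick i i j (pne i)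
    have hjk : -j ≠ -i := fun e => e1 (neg_inj.1 e).symm
    rw [D.hh_eq hx e2 h3 h1, D.hh_eq hx hjk h2 h3, D.hh_eq hx (pne i) h3 h3,
      ← (D.four_mul hx).commutator (mem_Fx1 e2 h3 h1 a) (mem_Fx1 hjk h2 h3 b),
      (spr (F := F) (l := Fin n) (by simpa using D.hn)).c2 e1 e2]
  c3 {i j} e1 e2 a b := by
    obtain ⟨x, hx, h1, h2, h3, h4⟩ := D.pick j j i (pne j)
    have hij : -i ≠ -j := fun e => e1 (neg_inj.1 e)
    rw [D.hh_eq hx (pne i) h1 h1, D.hh_eq hx hij h2 h3, D.hh_eq hx e2 h1 h3, D.hh_eq hx (pne j) h3 h3,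
      ← (D.four_mul hx).commutator (mem_Fx1 (pne i) h1 h1 a) (mem_Fx1 hij h2 h3 b),
      (spr (F := F) (l := Fin n) (by simpa using D.hn)).c3 e1 e2,
      D.four_mul hx _ (mem_Fx1 e2 h1 h3 _) _ (mem_Fx1 (pne j) h3 h3 _)]
  c4 {i j k l} e1 e2 e3 e4 e5 e6 a b := by
    obtain ⟨x, hx, h1, h2, h3, h4⟩ : ∃ x, (x = p ∨ x = -p ∨ x = q ∨ x = -q) ∧ i ≠ -x ∧ j ≠ -x ∧ k ≠ -x ∧ l ≠ -x := by
      by_cases h : i = -p ∨ j = -p ∨ k = -p ∨ l = -p
      · refine ⟨-p, Or.inr (Or.inl rfl), ?_, ?_, ?_, ?_⟩ <;> rw [neg_neg] <;> intro e <;>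
          rcases h with h | h | h | h
        · exact pne p (e.symm.trans h)
        · exact e1 (by rw [h, neg_neg]; exact e)
        · exact e3 (by rw [h, e])
        · exact e5 (by rw [h, e])
        · exact e1 (by rw [h, e])
        · exact pne p (e.symm.trans h)
        · exact e4 (by rw [h, e])
        · exact e6 (by rw [h, e])
        · exact e3 (by rw [h, neg_neg]; exact e)
        · exact e4 (by rw [h, neg_neg]; exact e)
        · exact pne p (e.symm.trans h)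
        · exact e2 (by rw [h, neg_neg]; exact e)
        · exact e5 (by rw [h, neg_neg]; exact e)
        · exact e6 (by rw [h, neg_neg]; exact e)
        · exact e2 (by rw [h, e])
        · exact pne p (e.symm.trans h)
      · push Not at h
        exact ⟨p, Or.inl rfl, h⟩
    rw [D.hh_eq hx e1 h1 h2, D.hh_eq hx e2 h3 h4, ← (D.four_mul hx).commutator (mem_Fx1 e1 h1 h2 a) (mem_Fx1 e2 h3 h4 b),
      (spr (F := F) (l := Fin n) (by simpa using D.hn)).c4 e1 e2 e3 e4 e5 e6, (D.four_mul hx).one]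

end PD

end Cfsg.Agent.H93.SpC
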