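import Cfsg.Agent.Stb.SpMat

set_option autoImplicit false

/-!
Steinberg relations of type `C` over an arbitrary field: injectivity of the map to the symplectic group, provided it is
injective on the rank one groups of the long roots.
-/

namespace Cfsg.Agent.H93.SpC

open Subgroup
open Cfsg.Agent.Mult (R1)
open Cfsg.Agent.Stb
open scoped commutatorElement

section rank1

variable {Γ : Type*} [Group Γ] {F : Type*} [Field F] {X Y : F → Γ} (R : R1 X Y)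

/-- the torus of a rank one group -/
def TT : Subgroup Γ := closure {g | ∃ t : F, t ≠ 0 ∧ g = R.h t}

lemma h_mem {t : F} (ht : t ≠ 0) : R.h t ∈ TT R := subset_closure ⟨t, ht, rfl⟩

lemma nn_mem : R.n 1 * R.n 1 ∈ TT R := by
  have h1 : R.h (-1) ∈ TT R := h_mem R (neg_ne_zero.2 one_ne_zero)
  have h2 : R.n 1 * R.n 1 = (R.h (-1))⁻¹ := by
    have e : R.h (-1) = R.n (-1) * R.n (-1) := rfl
    rw [eq_inv_iff_mul_eq_one, e]
    calc R.n 1 * R.n 1 * (R.n (-1) * R.n (-1)) = R.n 1 * (R.n 1 * R.n (-1)) * R.n (-1) := by group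
      _ = _ := by rw [R.n_one_neg, mul_one, R.n_one_neg]
  rw [h2]; exact inv_mem h1

lemma TT_X {τ : Γ} (hτ : τ ∈ TT R) : ∀ v, ∃ v', τ * X v = X v' * τ := by
  unfold TT at hτ
  have key : (∀ v, ∃ v', τ * X v = X v' * τ) ∧ (∀ v, ∃ v', τ⁻¹ * X v = X v' * τ⁻¹) := by
    induction hτ using closure_induction with
    | mem x hx =>
      obtain ⟨t, ht, rfl⟩ := hx
      refine ⟨fun v => ⟨_, R.h_X ht v⟩, fun v => ⟨v / t ^ 2, ?_⟩⟩
      have h1 := R.h_X ht (v / t ^ 2)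
      have e : t ^ 2 * (v / t ^ 2) = v := by field_simp
      rw [e] at h1
      rw [inv_mul_eq_iff_eq_mul, ← mul_assoc, h1]; group
    | one => simp
    | mul a b _ _ ha hb =>
      refine ⟨fun v => ?_, fun v => ?_⟩
      · obtain ⟨w, hw⟩ := hb.1 v
        obtain ⟨u, hu⟩ := ha.1 w
        exact ⟨u, by rw [mul_assoc, hw, ← mul_assoc, hu, mul_assoc]⟩
      · obtain ⟨w, hw⟩ := ha.2 v
        obtain ⟨u, hu⟩ := hb.2 w
        exact ⟨u, by rw [mul_inv_rev, mul_assoc, hw, ← mul_assoc, hu, mul_assoc]⟩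
    | inv a _ ha => exact ⟨ha.2, by rw [inv_inv]; exact ha.1⟩
  exact key.1

lemma TT_X' {τ : Γ} (hτ : τ ∈ TT R) (v : F) : ∃ v', X v * τ = τ * X v' := by
  obtain ⟨v', h⟩ := TT_X R (inv_mem hτ) v
  refine ⟨v', ?_⟩
  have h1 : τ * (τ⁻¹ * X v) * τ = τ * (X v' * τ⁻¹) * τ := by rw [h]
  have h2 : X v * τ = τ * (τ⁻¹ * X v) * τ := by group
  rw [h2, h1]; group

lemma TT_n {τ : Γ} (hτ : τ ∈ TT R) : ∃ τ' ∈ TT R, R.n 1 * τ = τ' * R.n 1 := by
  unfold TT at hτ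
  have key : (∃ τ' ∈ TT R, R.n 1 * τ = τ' * R.n 1) ∧ (∃ τ' ∈ TT R, R.n 1 * τ⁻¹ = τ' * R.n 1) := by
    induction hτ using closure_induction with
    | mem x hx =>
      obtain ⟨t, ht, rfl⟩ := hx
      refine ⟨⟨_, h_mem R (inv_ne_zero ht), R.n_h ht⟩, ⟨(R.h t⁻¹)⁻¹, inv_mem (h_mem R (inv_ne_zero ht)), ?_⟩⟩
      have := R.n_h ht
      rw [eq_inv_mul_iff_mul_eq, ← mul_assoc, ← this]; group
    | one => exact ⟨⟨1, one_mem _, by group⟩, ⟨1, one_mem _, by group⟩⟩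
    | mul a b _ _ ha hb =>
      obtain ⟨⟨a1, ha1, e1⟩, ⟨a2, ha2, e2⟩⟩ := ha
      obtain ⟨⟨b1, hb1, e3⟩, ⟨b2, hb2, e4⟩⟩ := hb
      refine ⟨⟨a1 * b1, mul_mem ha1 hb1, ?_⟩, ⟨b2 * a2, mul_mem hb2 ha2, ?_⟩⟩
      · rw [← mul_assoc, e1, mul_assoc, e3, mul_assoc]
      · rw [mul_inv_rev, ← mul_assoc, e4, mul_assoc, e2, mul_assoc]
    | inv a _ ha => exact ⟨ha.2, by rw [inv_inv]; exact ha.1⟩
  exact key.1

/-- Bruhat decomposition of a rank one group -/
theorem bruhat' {g : Γ} (hg : g ∈ R.S) : (∃ a, ∃ τ ∈ TT R, g = X a * τ) ∨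
    (∃ a b, ∃ τ ∈ TT R, g = X a * τ * R.n 1 * X b) := by
  have P : ∀ y : Γ, ((∃ a, ∃ τ ∈ TT R, y = X a * τ) ∨ (∃ a b, ∃ τ ∈ TT R, y = X a * τ * R.n 1 * X b)) →
      (∀ v, (∃ a, ∃ τ ∈ TT R, X v * y = X a * τ) ∨ (∃ a b, ∃ τ ∈ TT R, X v * y = X a * τ * R.n 1 * X b)) ∧
      (∀ v, (∃ a, ∃ τ ∈ TT R, Y v * y = X a * τ) ∨ (∃ a b, ∃ τ ∈ TT R, Y v * y = X a * τ * R.n 1 * X b)) := by
    intro y hy
    refine ⟨fun v => ?_, fun v => ?_⟩
    · rcases hy with ⟨a, τ, hτ, rfl⟩ | ⟨a, b, τ, hτ, rfl⟩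
      · left; exact ⟨v + a, τ, hτ, by rw [R.X_add]; group⟩
      · right; exact ⟨v + a, b, τ, hτ, by rw [R.X_add]; group⟩
    · by_cases hv : v = 0
      · rw [hv, R.Y_zero, one_mul]; exact hy
      have hv' : -v⁻¹ ≠ 0 := neg_ne_zero.2 (inv_ne_zero hv)
      rcases hy with ⟨a, τ, hτ, rfl⟩ | ⟨a, b, τ, hτ, rfl⟩
      · right
        obtain ⟨b, hb⟩ := TT_X' R hτ (v⁻¹ + a)
        obtain ⟨τ', hτ', e⟩ := TT_n R hτ
        refine ⟨v⁻¹, b, R.h (-v⁻¹) * τ', mul_mem (h_mem R hv') hτ', ?_⟩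
        rw [R.Y_eq hv]
        calc X v⁻¹ * R.h (-v⁻¹) * R.n 1 * X v⁻¹ * (X a * τ)
            = X v⁻¹ * R.h (-v⁻¹) * R.n 1 * (X (v⁻¹ + a) * τ) := by rw [R.X_add]; group
          _ = X v⁻¹ * R.h (-v⁻¹) * (R.n 1 * τ) * X b := by rw [hb]; group
          _ = _ := by rw [e]; group
      · by_cases hc : v⁻¹ + a = 0
        · left
          obtain ⟨τ', hτ', e⟩ := TT_n R hτ
          have h1 : R.h (-v⁻¹) * τ' * (R.n 1 * R.n 1) ∈ TT R := mul_mem (mul_mem (h_mem R hv') hτ') (nn_mem R)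
          obtain ⟨b', hb'⟩ := TT_X R h1 b
          refine ⟨v⁻¹ + b', _, h1, ?_⟩
          rw [R.Y_eq hv]
          calc X v⁻¹ * R.h (-v⁻¹) * R.n 1 * X v⁻¹ * (X a * τ * R.n 1 * X b)
              = X v⁻¹ * R.h (-v⁻¹) * R.n 1 * X (v⁻¹ + a) * τ * R.n 1 * X b := by rw [R.X_add]; group
            _ = X v⁻¹ * R.h (-v⁻¹) * (R.n 1 * τ) * R.n 1 * X b := by rw [hc, R.X_zero]; group
            _ = X v⁻¹ * (R.h (-v⁻¹) * τ' * (R.n 1 * R.n 1) * X b) := by rw [e]; group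
            _ = _ := by rw [hb', R.X_add]; group
        · right
          set c := v⁻¹ + a with hcdef
          have hc1 : (-c)⁻¹ ≠ 0 := inv_ne_zero (neg_ne_zero.2 hc)
          have hc2 : -(-c)⁻¹ ≠ 0 := neg_ne_zero.2 hc1
          have hx : R.n 1 * X c = Y (-c) * R.n 1 := by rw [R.n_mul_X one_ne_zero]; congr 2; ring
          obtain ⟨τ', hτ', e⟩ := TT_n R hτ
          have h1 : τ' * (R.n 1 * R.n 1) ∈ TT R := mul_mem hτ' (nn_mem R)
          obtain ⟨τ'', hτ'', e2⟩ := TT_n R h1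
          obtain ⟨b', hb'⟩ := TT_X' R h1 (-c)⁻¹
          refine ⟨v⁻¹ + (-v⁻¹) ^ 2 * (-c)⁻¹, b' + b, R.h (-v⁻¹) * R.h (-(-c)⁻¹) * τ'',
            mul_mem (mul_mem (h_mem R hv') (h_mem R hc2)) hτ'', ?_⟩
          rw [R.Y_eq hv]
          calc X v⁻¹ * R.h (-v⁻¹) * R.n 1 * X v⁻¹ * (X a * τ * R.n 1 * X b)
              = X v⁻¹ * R.h (-v⁻¹) * (R.n 1 * X c) * τ * R.n 1 * X b := by rw [hcdef, R.X_add]; group
            _ = X v⁻¹ * R.h (-v⁻¹) * Y (-c) * (R.n 1 * τ) * R.n 1 * X b := by rw [hx]; group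
            _ = X v⁻¹ * R.h (-v⁻¹) * Y (-c) * (τ' * (R.n 1 * R.n 1)) * X b := by rw [e]; group
            _ = X v⁻¹ * (R.h (-v⁻¹) * X (-c)⁻¹) * R.h (-(-c)⁻¹) * R.n 1 * (X (-c)⁻¹ * (τ' * (R.n 1 * R.n 1))) * X b := by
                rw [R.Y_eq (neg_ne_zero.2 hc)]; group
            _ = X v⁻¹ * X ((-v⁻¹) ^ 2 * (-c)⁻¹) * (R.h (-v⁻¹) * R.h (-(-c)⁻¹)) * (R.n 1 * (τ' * (R.n 1 * R.n 1))) *
                (X b' * X b) := by rw [R.h_X hv', hb']; group
            _ = _ := by rw [e2, R.X_add, R.X_add]; group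
  have key : ∀ y : Γ, ((∃ a, ∃ τ ∈ TT R, y = X a * τ) ∨ (∃ a b, ∃ τ ∈ TT R, y = X a * τ * R.n 1 * X b)) →
      ((∃ a, ∃ τ ∈ TT R, g * y = X a * τ) ∨ (∃ a b, ∃ τ ∈ TT R, g * y = X a * τ * R.n 1 * X b)) ∧
      ((∃ a, ∃ τ ∈ TT R, g⁻¹ * y = X a * τ) ∨ (∃ a b, ∃ τ ∈ TT R, g⁻¹ * y = X a * τ * R.n 1 * X b)) := by
    unfold R1.S at hg
    induction hg using closure_induction with
    | mem x hx =>
      intro y hy
      rcases hx with ⟨v, rfl⟩ | ⟨v, rfl⟩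
      · rw [← R.X_neg]; exact ⟨(P y hy).1 v, (P y hy).1 (-v)⟩
      · rw [← R.Y_neg]; exact ⟨(P y hy).2 v, (P y hy).2 (-v)⟩
    | one => intro y hy; rw [inv_one, one_mul]; exact ⟨hy, hy⟩
    | mul a b _ _ ha hb =>
      intro y hy
      refine ⟨?_, ?_⟩
      · rw [mul_assoc]; exact (ha _ (hb y hy).1).1
      · rw [mul_inv_rev, mul_assoc]; exact (hb _ (ha y hy).2).2
    | inv a _ ha => intro y hy; rw [inv_inv]; exact ⟨(ha y hy).2, (ha y hy).1⟩
  have := (key 1 (Or.inl ⟨0, 1, one_mem _, by rw [R.X_zero, one_mul]⟩)).1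
  rwa [mul_one] at this

end rank1

variable {I F Γ : Type*} [InvolutiveNeg I] [DecidableEq I] [Fintype I] [Field F] [Group Γ]
  {ε : I → F} {y : I → I → F → Γ} (R : SpR ε y) {ρ : Γ →* ((I → F) ≃ₗ[F] (I → F))} (A : SpAct ε y ρ)

include R A

/-- existence of diagonal elements -/
lemma exists_h' (i : I) {t : F} (ht : t ≠ 0) : ∃ h ∈ DG y ρ i, h ∈ (cls R A).T ∧ ρ h (ee i) = t • ee i := by
  have hii := Stb.ne' R.ne i
  set R' := r1 R A hii with hR'
  have hm : ∀ {t : F}, t ≠ 0 → R'.n t ∈ MM y ρ i i := fun ht => m_mem R A hii ht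
  have hn1 : (-1 : F) ≠ 0 := neg_ne_zero.2 one_ne_zero
  have e1 := R'.h_e1 ρ (X_e1 R A hii) (X_e2 R A hii) (Y_e1 R A hii) (Y_e2 R A hii) ht
  have e2 := R'.h_e2 ρ (X_e1 R A hii) (X_e2 R A hii) (Y_e1 R A hii) (Y_e2 R A hii) ht
  exact ⟨R'.h t, ⟨mul_mem (hm ht).1 (hm hn1).1, ⟨t, e1⟩, ⟨t⁻¹, e2⟩⟩, (cls R A).mul_mem_T hii (hm ht) (hm hn1), e1⟩

/-- the torus elements of a short rank one group are products of torus elements of the long ones -/
lemma short_h {i j : I} (hij : i ≠ -j) (hij2 : i ≠ j) {t : F} (ht : t ≠ 0) :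
    (r1 R A hij).h t ∈ ⨆ i, DG y ρ i := by
  have ne := R.ne
  have hmij : -i ≠ - -j := fun e => hij (neg_inj.1 e)
  obtain ⟨rfi, rfj⟩ := rf_self1 hij
  have hε : ∀ i, ε i ≠ 0 := fun i h0 => by have := R.eps i; rw [h0] at this; simp at this
  set R' := r1 R A hij with hR'
  have hm : ∀ {t : F}, t ≠ 0 → R'.n t ∈ MM y ρ i j := fun ht => m_mem R A hij ht
  obtain ⟨h, hhD, hhT, hh⟩ := exists_h' R A i ht
  have hnj1 : -j ≠ i := fun e => hij e.symm
  have hnj2 : -j ≠ -i := fun e => hij2 (neg_inj.1 e).symm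
  have hfix : ρ h (ee (-j)) = ee (-j) := long_fix R A hnj1 hnj2 hhD.1
  have hfix' : ρ h⁻¹ (ee (-j)) = ee (-j) := long_fix R A hnj1 hnj2 (inv_mem hhD.1)
  have hh' : ρ h⁻¹ (ee i) = t⁻¹ • ee i := swap_inv' hh
  -- conjugation of the root elements
  have cX : ∀ a, h * y i j (ε j * a) * h⁻¹ = y i j (ε j * (t * a)) := by
    intro a
    obtain ⟨w, hw⟩ := (R.mem_X hij).1 ((cls R A).T_X hij hhT _ (SpR.y_mem (y := y) i j (ε j * a)))
    have e3 : w = ε j * (ε j * w) := by linear_combination (-w) * R.eps j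
    rw [← hw]
    have e2 := congrArg (fun g => ρ g (ee (-j))) hw
    simp only [rho_mul A, hfix'] at e2
    rw [X_e2 R A hij, map_add, map_smul, hfix, hh, e3, X_e2 R A hij, smul_smul] at e2
    have h4 := li R A hij (ε j * w - a * t) 0 (by linear_combination (norm := module) e2)
    have h5 := sub_eq_zero.1 h4.1
    rw [e3, h5, mul_comm a]
  have cY : ∀ a, h * y (-i) (-j) (ε (-i) * a) * h⁻¹ = y (-i) (-j) (ε (-i) * (t⁻¹ * a)) := by
    intro a
    obtain ⟨w, hw⟩ := (R.mem_X hmij).1 ((cls R A).T_X hmij hhT _ (SpR.y_mem (y := y) (-i) (-j) (ε (-i) * a)))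
    have e3 : w = ε (-i) * (ε (-i) * w) := by linear_combination (-w) * R.eps (-i)
    rw [← hw]
    have e2 := congrArg (fun g => ρ g (ee i)) hw
    simp only [rho_mul A, hh', map_smul] at e2
    rw [Y_e1 R A hij, map_add, map_smul, hfix, hh, e3, Y_e1 R A hij, smul_add, smul_smul, smul_smul,
      inv_mul_cancel₀ ht, one_smul] at e2
    have h4 := li R A hij 0 (ε (-i) * w - t⁻¹ * a) (by linear_combination (norm := module) e2)
    have h5 := sub_eq_zero.1 h4.2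
    rw [e3, h5]
  have e1 : ∀ a, R'.n a = y i j (ε j * a) * y (-i) (-j) (ε (-i) * -a⁻¹) * y i j (ε j * a) := fun _ => rfl
  have key : R'.n t = h * R'.n 1 * h⁻¹ := by
    rw [e1, e1]
    calc y i j (ε j * t) * y (-i) (-j) (ε (-i) * -t⁻¹) * y i j (ε j * t)
        = (h * y i j (ε j * 1) * h⁻¹) * (h * y (-i) (-j) (ε (-i) * -1⁻¹) * h⁻¹) * (h * y i j (ε j * 1) * h⁻¹) := by
          rw [cX, cY, mul_one, inv_one, mul_neg_one]
      _ = _ := by group
  have e2 : R'.h t = h * (R'.n 1 * h⁻¹ * (R'.n 1)⁻¹) := by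
    have : R'.h t = R'.n t * R'.n (-1) := rfl
    rw [this, key, ← R'.n_inv]; group
  rw [e2]
  have hn := hm (one_ne_zero (α := F))
  have hk1 : R'.n 1 * h⁻¹ * (R'.n 1)⁻¹ ∈ XG y j j ⊔ XG y (-j) (-j) := by
    have : XG y i i ⊔ XG y (-i) (-i) ≤ (XG y j j ⊔ XG y (-j) (-j)).comap (MulAut.conj (R'.n 1)).toMonoidHom := by
      refine sup_le ?_ ?_
      · intro x hx; rw [mem_comap]
        have := M_X R A hij hn.1 hn.2 (Stb.ne' ne i) hx
        rw [rfi] at this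
        exact mem_sup_right this
      · intro x hx; rw [mem_comap]
        have := M_X R A hij hn.1 hn.2 (k := -i) (l := -i) (by rw [neg_neg]; exact ne i) hx
        rw [rf_neg ne _ _ _ hij, rfi, neg_neg] at this
        exact mem_sup_left this
    exact this (inv_mem hhD.1)
  have hT : R'.h t ∈ (cls R A).T := (cls R A).mul_mem_T hij (hm ht) (hm (neg_ne_zero.2 one_ne_zero))
  have hkSt : ∀ o, R'.n 1 * h⁻¹ * (R'.n 1)⁻¹ ∈ St ρ o := by
    intro o
    have : R'.n 1 * h⁻¹ * (R'.n 1)⁻¹ = h⁻¹ * R'.h t := by rw [e2]; group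
    rw [this]
    exact mul_mem (inv_mem (T_St R A o hhT)) (T_St R A o hT)
  exact mul_mem (mem_iSup_of_mem i hhD) (mem_iSup_of_mem j ⟨hk1, hkSt j, hkSt (-j)⟩)

/-- elements of a short rank one group acting as the reflection -/
lemma short_m {i j : I} (hij : i ≠ -j) {m : Γ} (hm : m ∈ MM y ρ i j) :
    ∃ τ ∈ TT (r1 R A hij), m = τ * (r1 R A hij).n 1 := by
  have ne := R.ne
  obtain ⟨rfi, rfj⟩ := rf_self1 hij
  set R' := r1 R A hij with hR'
  have hmulv : ∀ (a b : Γ) (v : I → F), ρ (a * b) v = ρ a (ρ b v) := fun a b v => rho_mul A a b v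
  have hτ1 : ∀ τ ∈ TT R', (∃ c : F, c ≠ 0 ∧ ρ τ (ee i) = c • ee i) ∧ (∃ c : F, c ≠ 0 ∧ ρ τ (ee (-j)) = c • ee (-j)) := by
    intro τ hτ
    unfold TT at hτ
    have hh : ∀ o, (∀ t, t ≠ 0 → R'.h t ∈ St ρ o) → τ ∈ St ρ o := by
      intro o ho
      refine (?_ : Subgroup.closure _ ≤ St ρ o) hτ
      rw [closure_le]
      rintro _ ⟨t, ht, rfl⟩
      exact ho t ht
    have h1 : τ ∈ St ρ i := hh i fun t ht => ⟨t, R'.h_e1 ρ (X_e1 R A hij) (X_e2 R A hij) (Y_e1 R A hij) (Y_e2 R A hij) ht⟩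
    have h2 : τ ∈ St ρ (-j) := hh (-j) fun t ht => ⟨t⁻¹, R'.h_e2 ρ (X_e1 R A hij) (X_e2 R A hij) (Y_e1 R A hij) (Y_e2 R A hij) ht⟩
    obtain ⟨c, hc⟩ := h1
    obtain ⟨d, hd⟩ := h2
    exact ⟨⟨c, swap_ne hc, hc⟩, ⟨d, swap_ne hd, hd⟩⟩
  obtain ⟨c1, hc1⟩ := hm.2 i
  obtain ⟨c2, hc2⟩ := hm.2 (-j)
  rw [rfi] at hc1
  rw [rf_neg ne _ _ _ hij, rfj, neg_neg] at hc2
  have hc10 := swap_ne hc1
  have n1 := R'.n_e1 ρ (X_e1 R A hij) (X_e2 R A hij) (Y_e1 R A hij) (t := 1) one_ne_zero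
  have n2 := R'.n_e2 ρ (X_e1 R A hij) (X_e2 R A hij) (Y_e1 R A hij) (Y_e2 R A hij) (t := 1) one_ne_zero
  rcases bruhat' R' (S_eq R A hij hm.1) with ⟨a, τ, hτ, e⟩ | ⟨a, b, τ, hτ, e⟩
  · exfalso
    obtain ⟨⟨d, hd0, hd⟩, -⟩ := hτ1 τ hτ
    rw [e, hmulv, hd, map_smul, X_e1 R A hij] at hc1
    have h4 := li R A hij d (-c1) (by linear_combination (norm := module) hc1)
    exact hd0 h4.1
  · obtain ⟨⟨d, hd0, hd⟩, ⟨d', hd0', hd'⟩⟩ := hτ1 τ hτ
    rw [e, hmulv, hmulv, hmulv, X_e1 R A hij, n1, map_smul, hd', map_smul, map_smul, X_e2 R A hij] at hc1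
    have h4 := li R A hij ((-(1 : F)⁻¹) * d' * a) ((-(1 : F)⁻¹) * d' - c1) (by linear_combination (norm := module) hc1)
    have ha : a = 0 := by
      have h5 : (-(1 : F)⁻¹) * d' ≠ 0 := by simpa using hd0'
      exact (mul_eq_zero.1 h4.1).resolve_left h5
    subst ha
    rw [e, hmulv, hmulv, hmulv, X_e2 R A hij] at hc2
    simp only [map_add, map_smul, n1, n2, hd, hd', X_e1 R A hij, X_e2 R A hij] at hc2
    have h6 := li R A hij (d - c2) (b * (-(1 : F)⁻¹ * d')) (by linear_combination (norm := module) hc2)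
    have hb : b = 0 := by
      have h5 : (-(1 : F)⁻¹) * d' ≠ 0 := by simpa using hd0'
      exact (mul_eq_zero.1 h6.2).resolve_right h5
    subst hb
    refine ⟨τ, hτ, ?_⟩
    rw [e, R'.X_zero, one_mul, mul_one]

/-- the torus is generated by the tori of the long roots -/
lemma T_le' : (cls R A).T ≤ ⨆ i, DG y ρ i := by
  have ne := R.ne
  unfold Cls.T
  rw [closure_le]
  rintro _ ⟨i, j, hij, m, hm, m', hm', rfl⟩
  have hSt : ∀ o, m * m' ∈ St ρ o := fun o => T_St R A o ((cls R A).mul_mem_T hij hm hm')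
  by_cases hij2 : i = j
  · subst hij2
    exact mem_iSup_of_mem i ⟨mul_mem hm.1 hm'.1, hSt i, hSt (-i)⟩
  · obtain ⟨τ, hτ, rfl⟩ := short_m R A hij hm
    obtain ⟨τ', hτ', rfl⟩ := short_m R A hij hm'
    obtain ⟨τ'', hτ'', e⟩ := TT_n _ hτ'
    have e1 : τ * (r1 R A hij).n 1 * (τ' * (r1 R A hij).n 1) = τ * τ'' * ((r1 R A hij).n 1 * (r1 R A hij).n 1) := by
      calc τ * (r1 R A hij).n 1 * (τ' * (r1 R A hij).n 1) = τ * ((r1 R A hij).n 1 * τ') * (r1 R A hij).n 1 := by group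
        _ = _ := by rw [e]; group
    have e2 : TT (r1 R A hij) ≤ ⨆ i, DG y ρ i := by
      unfold TT
      rw [closure_le]
      rintro _ ⟨t, ht, rfl⟩
      exact short_h R A hij hij2 ht
    rw [SetLike.mem_coe, e1]
    exact e2 (mul_mem (mul_mem hτ hτ'') (nn_mem _))

lemma DS_inj' (hL : ∀ i, ∀ g ∈ XG y i i ⊔ XG y (-i) (-i), ρ g = 1 → g = 1) (S : Finset I) :
    ∀ τ ∈ ⨆ i ∈ S, DG y ρ i, ρ τ = 1 → τ = 1 := by
  have ne := R.ne
  induction S using Finset.induction_on with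
  | empty => intro τ hτ _; simpa using hτ
  | insert k S hk ih =>
    intro τ hτ h
    rw [Finset.iSup_insert] at hτ
    by_cases hS : k ∈ S ∨ -k ∈ S
    · have hle : DG y ρ k ≤ ⨆ i ∈ S, DG y ρ i := by
        rcases hS with h1 | h1
        · exact absurd h1 hk
        · rw [← DG_neg]; exact le_biSup (DG y ρ) h1
      rw [sup_eq_right.2 hle] at hτ
      exact ih τ hτ h
    · push Not at hS
      have hne : ∀ i ∈ S, k ≠ i ∧ k ≠ -i := fun i hi =>
        ⟨fun e => hS.1 (e ▸ hi), fun e => hS.2 (by rw [e, neg_neg]; exact hi)⟩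
      have hcomm : ∀ a ∈ DG y ρ k, ∀ b ∈ ⨆ i ∈ S, DG y ρ i, a * b * a⁻¹ ∈ ⨆ i ∈ S, DG y ρ i := by
        intro a ha b hb
        have : (⨆ i ∈ S, DG y ρ i) ≤ centralizer {a} := by
          refine iSup₂_le fun i hi x hx => ?_
          rw [mem_centralizer_iff]
          rintro _ rfl
          exact DG_comm R A (hne i hi).1 (hne i hi).2 ha hx
        have h1 := mem_centralizer_iff.1 (this hb) a rfl
        rw [h1, mul_inv_cancel_right]; exact hb
      obtain ⟨a, ha, b, hb, rfl⟩ := Cfsg.Agent.ChevGrp.mem_sup_of_normalizes hcomm hτ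
      have hbfix : ∀ p, (p = k ∨ p = -k) → ρ b (ee p) = ee p := by
        intro p hp
        have : (⨆ i ∈ S, DG y ρ i) ≤
            { carrier := {x | ρ x (ee p) = ee p}, one_mem' := by simp,
              mul_mem' := fun {a b} ha hb => by
                simp only [Set.mem_ofPred_eq] at *; rw [rho_mul A, hb, ha]
              inv_mem' := fun {a} ha => by
                simp only [Set.mem_ofPred_eq] at *
                have := swap_inv' (ρ := ρ) (g := a) (c := 1) (p := p) (q := p) (by rw [one_smul]; exact ha)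
                rwa [inv_one, one_smul] at this } := by
          refine iSup₂_le fun i hi x hx => ?_
          change ρ x (ee p) = ee p
          obtain ⟨h1, h2⟩ := hne i hi
          rcases hp with rfl | rfl
          · exact long_fix R A h1 h2 hx.1
          · exact long_fix R A (fun e => h2 (by rw [← e, neg_neg])) (fun e => h1 (neg_inj.1 e)) hx.1
        exact this hb
      have hafix : ∀ p, (p = k ∨ p = -k) → ρ a (ee p) = ee p := by
        intro p hp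
        have h1 : ρ (a * b) (ee p) = ee p := by rw [h]; rfl
        rwa [rho_mul A, hbfix p hp] at h1
      have ha1 : a = 1 := by
        refine hL k a ha.1 ?_
        apply LinearEquiv.toLinearMap_injective
        apply ext_ee
        intro p
        change ρ a (ee p) = ee p
        by_cases h1 : p = k ∨ p = -k
        · exact hafix p h1
        · push Not at h1
          exact long_fix R A h1.1 h1.2 ha.1
      subst ha1
      rw [one_mul] at h ⊢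
      exact ih b hb h

/-- **injectivity**: a product of root elements with the relations of type `C` which acts trivially is trivial -/
theorem sp_inj_gen (hL : ∀ i, ∀ g ∈ XG y i i ⊔ XG y (-i) (-i), ρ g = 1 → g = 1)
    {g : Γ} (hg : g ∈ gp (XG y) (fun _ _ => True)) (h : ρ g = 1) : g = 1 := by
  have h1 : g ∈ (cls R A).T := mem_T R A (mem_sup_left hg) (fun o => ⟨1, by rw [h, one_smul]; rfl⟩)
  have h2 := T_le' R A h1
  refine DS_inj' R A hL Finset.univ g ?_ h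
  simpa using h2

end Cfsg.Agent.H93.SpC
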