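import Cfsg.Agent.H93.SpC.Amal

set_option autoImplicit false
set_option linter.unusedSectionVars false

/-!
Extension of the amalgam maps to the stabilizer of a vector.
-/

namespace Cfsg.Agent.H93.SpC

open Matrix Subgroup
open Cfsg.Agent.ClassSp Cfsg.Agent.Stb
open scoped commutatorElement

attribute [local instance] sumNeg

variable {F : Type*} [Field F] {H : Type*} [Group H]

lemma Fx_SS_mem {n : ℕ} (j : Fin n) : Fx F (SS j) ∈ XX F n := Or.inl ⟨j, rfl⟩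
lemma Fx_MS_mem {n i : ℕ} (hi : i + 1 < n) : Fx F (MS n i) ∈ XX F n := Or.inr ⟨i, hi, rfl⟩

/-- long root elements in the plane groups -/
lemma long_mem {n : ℕ} (p : Fin n ⊕ Fin n) : ∃ j : Fin n, bl p = j ∧ ∀ a : F, ye p p a ∈ Fx F (SS j) := by
  rcases p with j | j
  · exact ⟨j, rfl, fun a => ye_mem_Fx (Stb.ne' (swap_ne' (l := Fin n)) _) a (fun h => h.2 rfl) (fun h => h.2 rfl)⟩
  · exact ⟨j, rfl, fun a => ye_mem_Fx (Stb.ne' (swap_ne' (l := Fin n)) _) a (fun h => h.1 rfl) (fun h => h.1 rfl)⟩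

lemma inl_mem_MS {n i : ℕ} {k l : Fin n} (hk : (k : ℕ) = i ∨ (k : ℕ) = i + 1) (hl : (l : ℕ) = i ∨ (l : ℕ) = i + 1) (a : F) :
    ye (Sum.inl k) (Sum.inl l) a ∈ Fx F (MS n i) := by
  refine ye_mem_Fx (by change Sum.inl k ≠ Sum.inr l; simp) a ?_ ?_
  · intro h
    have := h k rfl
    omega
  · intro h
    have := h l rfl
    omega

/-- root elements commuting with `M i` -/
lemma M_comm {n i : ℕ} (hi : i + 1 < n) {x : symplecticGroup (Fin n) F} (hx : x ∈ Fx F (MS n i)) {p q : Fin n ⊕ Fin n}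
    (hpq : p ≠ -q) (hp : ∀ k : Fin n, p = Sum.inr k → (k : ℕ) ≠ i ∧ (k : ℕ) ≠ i + 1)
    (hq : ∀ k : Fin n, q = Sum.inr k → (k : ℕ) ≠ i ∧ (k : ℕ) ≠ i + 1) (a : F) : x * ye p q a = ye p q a * x := by
  obtain ⟨b, c, d, rfl⟩ := M_struct hi hx
  have R := spr (F := F) (l := Fin n) (by simp; omega)
  set k : Fin n := ⟨i, by omega⟩ with hk
  set k' : Fin n := ⟨i + 1, hi⟩ with hk'
  have n1 : ∀ j : Fin n, -(Sum.inl j : Fin n ⊕ Fin n) = Sum.inr j := fun _ => rfl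
  have h1 : p ≠ -Sum.inl k := fun e => (hp k e).1 rfl
  have h2 : p ≠ -Sum.inl k' := fun e => (hp k' e).2 rfl
  have h3 : q ≠ -Sum.inl k := fun e => (hq k e).1 rfl
  have h4 : q ≠ -Sum.inl k' := fun e => (hq k' e).2 rfl
  have e1 := commutatorElement_eq_one_iff_mul_comm.1 (R.c4 (i := Sum.inl k) (j := Sum.inl k) (k := p) (l := q)
    (by rw [n1]; simp) hpq h1 h1 h3 h3 b a)
  have e2 := commutatorElement_eq_one_iff_mul_comm.1 (R.c4 (i := Sum.inl k) (j := Sum.inl k') (k := p) (l := q)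
    (by rw [n1]; simp) hpq h1 h2 h3 h4 c a)
  have e3 := commutatorElement_eq_one_iff_mul_comm.1 (R.c4 (i := Sum.inl k') (j := Sum.inl k') (k := p) (l := q)
    (by rw [n1]; simp) hpq h2 h2 h4 h4 d a)
  rw [mul_assoc, e3, ← mul_assoc, mul_assoc _ _ (ye p q a), e2, ← mul_assoc, e1]
  simp only [mul_assoc]

/-- the plane group commutes with the complement -/
lemma S_comm {m : ℕ} {s : symplecticGroup (Fin (m + 1)) F} (hs : s ∈ Fx F (SS (0 : Fin (m + 1))))
    (g : symplecticGroup (Fin m) F) : s * ios m g = ios m g * s := by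
  have hfix : ∀ w : Fin m ⊕ Fin m → F, s ⋆ ex Fin.succ w = ex Fin.succ w := by
    intro w
    have h1 : s ⋆ ex Fin.succ w = ∑ q, w q • (s ⋆ ee (sm Fin.succ q)) := by
      unfold ex
      change natRep s (∑ q, w q • ee (sm Fin.succ q)) = _
      rw [map_sum]
      exact Finset.sum_congr rfl fun q _ => st_smul _ _ _
    rw [h1]
    unfold ex
    refine Finset.sum_congr rfl fun q _ => ?_
    rw [hs (sm Fin.succ q) ⟨ss_ne_oo q, ss_ne_noo q⟩]
  have h2 : ∀ p, p ∉ Set.range (sm (Fin.succ (n := m))) → (s ⋆ ee p) ∘ sm Fin.succ = 0 := by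
    intro p hp
    apply eq_zero_of_sf
    intro u
    rw [← sf_ex_left, ← hfix u, sf_st, sf_es_ee hp]
  have h3 : ∀ p, p ∉ Set.range (sm (Fin.succ (n := m))) → ios m g ⋆ (s ⋆ ee p) = s ⋆ ee p := by
    intro p hp
    rw [io_st, h2 p hp, st_zero, sub_zero, ex_zero, add_zero]
  apply ext_st_ee
  intro p
  rw [st_mul, st_mul]
  rcases tri p with rfl | rfl | ⟨q, rfl⟩
  · rw [h3 _ oo_not_range, io_fix _ g oo_not_range]
  · rw [h3 _ noo_not_range, io_fix _ g noo_not_range]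
  · rw [io_ee, hfix, hs (sm Fin.succ q) ⟨ss_ne_oo q, ss_ne_noo q⟩, io_ee]

lemma ios_SS {m : ℕ} {j : Fin m} {g : symplecticGroup (Fin m) F} (hg : g ∈ Fx F (SS j)) :
    ios m g ∈ Fx F (SS j.succ) := by
  refine io_mem_Fx _ ?_ hg
  rintro p ⟨h1, h2⟩
  rcases tri p with rfl | rfl | ⟨q, rfl⟩
  · exact Or.inl oo_not_range
  · exact Or.inl noo_not_range
  · refine Or.inr ⟨q, ⟨?_, ?_⟩, rfl⟩
    · rintro rfl; exact h1 rfl
    · rintro rfl; exact h2 rfl

section kap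

variable {m : ℕ} {f : symplecticGroup (Fin (m + 2)) F → H} (A : Am (m + 2) f) (Φ : symplecticGroup (Fin (m + 1)) F →* H)
  (hΦ : ∀ X ∈ XX F (m + 1), ∀ g ∈ X, Φ g = f (ios (m + 1) g))

include A hΦ

lemma hcomm {X' : Subgroup (symplecticGroup (Fin (m + 1)) F)} (hX' : X' ∈ XX F (m + 1)) {g : symplecticGroup (Fin (m + 1)) F}
    (hg : g ∈ X') {Y : Subgroup (symplecticGroup (Fin (m + 2)) F)} (hY : Y ∈ XX F (m + 2)) {y : symplecticGroup (Fin (m + 2)) F}
    (hy : y ∈ Y) (h : ios (m + 1) g * y = y * ios (m + 1) g) : Φ g * f y = f y * Φ g := by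
  obtain ⟨X, hX, h1⟩ := succ_XX X' hX'
  rw [hΦ X' hX' g hg]
  exact A.comm hX hY (h1 (mem_map_of_mem _ hg)) hy h

/-- the plane group and the complement -/
lemma K0 (g : symplecticGroup (Fin (m + 1)) F) {s : symplecticGroup (Fin (m + 2)) F}
    (hs : s ∈ Fx F (SS (0 : Fin (m + 2)))) : Φ g * f s = f s * Φ g := by
  let K : Subgroup (symplecticGroup (Fin (m + 1)) F) :=
    (centralizer (f '' (Fx F (SS (0 : Fin (m + 2))) : Set (symplecticGroup (Fin (m + 2)) F)))).comap Φ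
  have hK : ∀ g, g ∈ K ↔ ∀ s ∈ Fx F (SS (0 : Fin (m + 2))), Φ g * f s = f s * Φ g := by
    intro g
    change Φ g ∈ centralizer _ ↔ _
    rw [mem_centralizer_iff]
    constructor
    · intro h s hs; exact (h _ ⟨s, hs, rfl⟩).symm
    · rintro h _ ⟨s, hs, rfl⟩; exact (h s hs).symm
  have key : (⊤ : Subgroup (symplecticGroup (Fin (m + 1)) F)) ≤ K := by
    rw [← yeG_top]
    unfold yeG
    rw [closure_le]
    rintro _ ⟨i, j, hij, a, rfl⟩
    refine gen_lemma (E := ∅) (by simp) ?_ ?_ hij (by simp) (by simp) a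
    · intro i _ a
      rw [hK]
      intro s hs
      obtain ⟨j, -, hj⟩ := long_mem (F := F) i
      exact hcomm A Φ hΦ (Fx_SS_mem j) (hj a) (Fx_SS_mem 0) hs (S_comm hs _).symm
    · intro k hk a
      rw [hK]
      intro s hs
      exact hcomm A Φ hΦ (Fx_MS_mem hk) (inl_mem_MS (n := m + 1) (i := k) (Or.inl rfl) (Or.inr rfl) a) (Fx_SS_mem 0) hs (S_comm hs _).symm
  exact (hK g).1 (key (mem_top g)) s hs

/-- the stabilizer of the first vector and the first abelian group -/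
lemma K1 {g : symplecticGroup (Fin (m + 1)) F} (hg : g ⋆ ee (oo m) = ee (oo m)) {x : symplecticGroup (Fin (m + 2)) F}
    (hx : x ∈ Fx F (MS (m + 2) 0)) : Φ g * f x = f x * Φ g := by
  let K : Subgroup (symplecticGroup (Fin (m + 1)) F) :=
    (centralizer (f '' (Fx F (MS (m + 2) 0) : Set (symplecticGroup (Fin (m + 2)) F)))).comap Φ
  have hK : ∀ g, g ∈ K ↔ ∀ s ∈ Fx F (MS (m + 2) 0), Φ g * f s = f s * Φ g := by
    intro g
    change Φ g ∈ centralizer _ ↔ _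
    rw [mem_centralizer_iff]
    constructor
    · intro h s hs; exact (h _ ⟨s, hs, rfl⟩).symm
    · rintro h _ ⟨s, hs, rfl⟩; exact (h s hs).symm
  have h01 : 0 + 1 < m + 2 := by omega
  have hgo : -oo m = Sum.inr 0 := rfl
  have key : Fx F {oo m} ≤ K := by
    refine Fx_oo_le fun i j hij hi hj a => ?_
    refine gen_lemma (E := {-oo m}) ?_ ?_ ?_ hij (by simpa using hi) (by simpa using hj) a
    · rintro p rfl
      exact ⟨0, rfl, Or.inl rfl⟩
    · intro i hi a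
      rw [hK]
      intro s hs
      obtain ⟨j, -, hj⟩ := long_mem (F := F) i
      refine hcomm A Φ hΦ (Fx_SS_mem j) (hj a) (Fx_MS_mem h01) hs ?_
      have hii : i ≠ -i := Stb.ne' (swap_ne' (l := Fin (m + 1))) i
      rw [io_ye _ hii]
      have hh : ∀ k : Fin (m + 2), sm Fin.succ i = Sum.inr k → (k : ℕ) ≠ 0 ∧ (k : ℕ) ≠ 0 + 1 := by
        intro k hk
        rcases i with i | i
        · cases hk
        · obtain rfl : i.succ = k := Sum.inr.inj hk
          refine ⟨by simp, fun h => hi ?_⟩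
          have : i = 0 := by apply Fin.ext; simpa using h
          rw [this]; rfl
      refine (M_comm h01 hs ?_ hh hh a).symm
      exact Stb.ne' (swap_ne' (l := Fin (m + 2))) _
    · intro k hk a
      rw [hK]
      intro s hs
      refine hcomm A Φ hΦ (Fx_MS_mem hk) (inl_mem_MS (n := m + 1) (i := k) (Or.inl rfl) (Or.inr rfl) a) (Fx_MS_mem h01) hs ?_
      rw [io_ye _ (by change Sum.inl _ ≠ Sum.inr _; simp)]
      refine (M_comm h01 hs ?_ ?_ ?_ a).symm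
      · change Sum.inl _ ≠ Sum.inr _; simp
      · intro k e; cases e
      · intro k e; cases e
  exact (hK g).1 (key (by rintro p rfl; exact hg)) x hx

omit A hΦ in
lemma qq_mem_M (a c : F) : qq (a • ee (oo m)) c ∈ Fx F (MS (m + 2) 0) := by
  intro p hp
  have h1 : p ≠ -oo (m + 1) := by
    rintro rfl
    have := hp 0 rfl
    simp at this
  have h2 : p ≠ -sm Fin.succ (oo m) := by
    rintro rfl
    have := hp 1 rfl
    simp at this
  rw [qq_st, ex_smul, ex_ee, sf_smul_left, sf_ee_ee h1, sf_ee_ee h2]; module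

omit A hΦ in
lemma qq_mem_S (c : F) : qq (0 : Fin (m + 1) ⊕ Fin (m + 1) → F) c ∈ Fx F (SS (0 : Fin (m + 2))) := by
  rw [qq_zero']
  obtain ⟨j, hj, h⟩ := long_mem (F := F) (oo (m + 1))
  have : j = 0 := by
    apply Fin.ext
    rw [← hj]; rfl
  rw [← this]; exact h c

/-- well-definedness -/
lemma wd {k : symplecticGroup (Fin (m + 1)) F} {a a' : F} (h : k ⋆ (a • ee (oo m)) = a' • ee (oo m)) (c : F) :
    Φ k * f (qq (a • ee (oo m)) c) * (Φ k)⁻¹ = f (qq (a' • ee (oo m)) c) := by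
  by_cases ha : a = 0
  · subst ha
    have ha' : a' = 0 := by
      rw [zero_smul, st_zero] at h
      have := congrFun h (oo m)
      rw [Pi.smul_apply, ee_self, smul_eq_mul, mul_one] at this
      exact this.symm
    subst ha'
    rw [zero_smul, K0 A Φ hΦ k (qq_mem_S c), mul_inv_cancel_right]
  · have hk : k ⋆ ee (oo m) = (a' / a) • ee (oo m) := by
      rw [st_smul] at h
      rw [div_eq_inv_mul, mul_smul, ← h, smul_smul, inv_mul_cancel₀ ha, one_smul]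
    have ht : a' / a ≠ 0 := by
      intro e
      rw [e, zero_smul] at hk
      exact ee_ne (F := F) (oo m) (st_inj k (by rw [hk, st_zero]))
    obtain ⟨s, hs, hse⟩ := S_trans (F := F) (0 : Fin (m + 1)) (v := ee (Sum.inl 0)) (w := (a' / a) • ee (Sum.inl 0))
      (ee_ne _) (by
        intro e
        have := congrFun e (Sum.inl 0)
        rw [Pi.smul_apply, ee_self, smul_eq_mul, mul_one] at this
        exact ht this)
    rw [ex_smul, ex_ee] at hse
    have hse' : s ⋆ ee (oo m) = (a' / a) • ee (oo m) := hse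
    have h1 : (s⁻¹ * k) ⋆ ee (oo m) = ee (oo m) := by
      rw [st_mul, hk]; exact st_eq_inv hse'
    have h2 := K1 A Φ hΦ h1 (qq_mem_M a c)
    have h3 : Φ k = Φ s * Φ (s⁻¹ * k) := by rw [← map_mul]; congr 1; group
    have h01 : 0 + 1 < m + 2 := by omega
    have h4 : ios (m + 1) s * qq (a • ee (oo m)) c * (ios (m + 1) s)⁻¹ = qq (a' • ee (oo m)) c := by
      rw [ios_qq, st_smul, hse', smul_smul, mul_div_cancel₀ _ ha]
    calc Φ k * f (qq (a • ee (oo m)) c) * (Φ k)⁻¹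
        = Φ s * (Φ (s⁻¹ * k) * f (qq (a • ee (oo m)) c)) * (Φ (s⁻¹ * k))⁻¹ * (Φ s)⁻¹ := by rw [h3]; group
      _ = Φ s * f (qq (a • ee (oo m)) c) * (Φ s)⁻¹ := by rw [h2]; group
      _ = f (ios (m + 1) s) * f (qq (a • ee (oo m)) c) * (f (ios (m + 1) s))⁻¹ := by rw [hΦ _ (Fx_SS_mem 0) s hs]
      _ = f (qq (a' • ee (oo m)) c) := by
          rw [A.conj (Fx_SS_mem _) (Fx_MS_mem h01) (ios_SS hs) (qq_mem_M a c) (by rw [h4]; exact qq_mem_M a' c), h4]

omit A hΦ in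
lemma exists_rep (w : Fin (m + 1) ⊕ Fin (m + 1) → F) :
    ∃ (g : symplecticGroup (Fin (m + 1)) F) (a : F), g ⋆ (a • ee (oo m)) = w := by
  by_cases hw : w = 0
  · exact ⟨1, 0, by rw [hw, zero_smul, st_zero]⟩
  · obtain ⟨g, hg⟩ := trans_v (ee_ne (F := F) (oo m)) hw
    exact ⟨g, 1, by rw [one_smul, hg]⟩

omit A hΦ in
/-- the map on the unipotent radical -/
noncomputable def kap (f : symplecticGroup (Fin (m + 2)) F → H) (Φ : symplecticGroup (Fin (m + 1)) F →* H)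
    (w : Fin (m + 1) ⊕ Fin (m + 1) → F) (c : F) : H :=
  Φ (exists_rep w).choose * f (qq ((exists_rep w).choose_spec.choose • ee (oo m)) c) * (Φ (exists_rep w).choose)⁻¹

lemma kap_eq {g : symplecticGroup (Fin (m + 1)) F} {a : F} {w : Fin (m + 1) ⊕ Fin (m + 1) → F}
    (h : g ⋆ (a • ee (oo m)) = w) (c : F) : kap f Φ w c = Φ g * f (qq (a • ee (oo m)) c) * (Φ g)⁻¹ := by
  set g' := (exists_rep w).choose with hg'
  set a' := (exists_rep w).choose_spec.choose with ha'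
  have h' : g' ⋆ (a' • ee (oo m)) = w := (exists_rep w).choose_spec.choose_spec
  have h1 : (g'⁻¹ * g) ⋆ (a • ee (oo m)) = a' • ee (oo m) := by
    rw [st_mul, h]; exact st_eq_inv h'
  have h2 := wd A Φ hΦ h1 c
  change Φ g' * f (qq (a' • ee (oo m)) c) * (Φ g')⁻¹ = _
  rw [← h2, map_mul, map_inv]; group

lemma kap_conj (g : symplecticGroup (Fin (m + 1)) F) (w : Fin (m + 1) ⊕ Fin (m + 1) → F) (c : F) :
    Φ g * kap f Φ w c * (Φ g)⁻¹ = kap f Φ (g ⋆ w) c := by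
  obtain ⟨g', a, rfl⟩ := exists_rep w
  rw [kap_eq A Φ hΦ rfl c, kap_eq A Φ hΦ (st_mul g g' _) c, map_mul]; group

/-- multiplicativity on the first plane -/
lemma kap_mul0 (u u' : Fin 1 ⊕ Fin 1 → F) (c c' : F) :
    kap f Φ (ex (fun _ : Fin 1 => (0 : Fin (m + 1))) u) c * kap f Φ (ex (fun _ : Fin 1 => (0 : Fin (m + 1))) u') c' =
      kap f Φ (ex (fun _ : Fin 1 => (0 : Fin (m + 1))) u + ex (fun _ : Fin 1 => (0 : Fin (m + 1))) u')
        (c + c' + sf (ex (fun _ : Fin 1 => (0 : Fin (m + 1))) u) (ex (fun _ : Fin 1 => (0 : Fin (m + 1))) u')) := by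
  have h01 : 0 + 1 < m + 2 := by omega
  obtain ⟨ψ, hψ, hM, hS⟩ := A _ (Fx_MS_mem h01) _ (Fx_SS_mem (1 : Fin (m + 2)))
  have key : ∀ u c, kap f Φ (ex (fun _ : Fin 1 => (0 : Fin (m + 1))) u) c = ψ (qq (ex (fun _ : Fin 1 => (0 : Fin (m + 1))) u) c) ∧
      qq (ex (fun _ : Fin 1 => (0 : Fin (m + 1))) u) c ∈ Fx F (MS (m + 2) 0) ⊔ Fx F (SS (1 : Fin (m + 2))) := by
    intro u c
    by_cases hu : u = 0
    · subst hu
      have e : (0 : F) • ee (F := F) (oo m) = 0 := zero_smul _ _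
      have h1 := qq_mem_M (m := m) (0 : F) c
      rw [e] at h1
      rw [ex_zero]
      refine ⟨?_, mem_sup_left h1⟩
      rw [kap_eq A Φ hΦ (g := 1) (a := 0) (by rw [e, st_zero]) c, map_one, e, one_mul, inv_one, mul_one, hM _ h1]
    · obtain ⟨s, hs, hse⟩ := S_trans (F := F) (0 : Fin (m + 1)) (v := ee (Sum.inl 0)) (w := u) (ee_ne _) hu
      rw [ex_ee] at hse
      have hse' : s ⋆ ((1 : F) • ee (oo m)) = ex (fun _ : Fin 1 => (0 : Fin (m + 1))) u := by rw [one_smul]; exact hse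
      have h1 := qq_mem_M (m := m) (1 : F) c
      have h2 : ios (m + 1) s ∈ Fx F (SS (1 : Fin (m + 2))) := ios_SS hs
      have h3 : ios (m + 1) s * qq ((1 : F) • ee (oo m)) c * (ios (m + 1) s)⁻¹ = qq (ex (fun _ : Fin 1 => (0 : Fin (m + 1))) u) c := by
        rw [ios_qq, hse']
      constructor
      · rw [kap_eq A Φ hΦ hse' c, hΦ _ (Fx_SS_mem 0) s hs, ← hS _ h2, ← hM _ h1,
          ← hψ.conj (mem_sup_right h2) (mem_sup_left h1), h3]
      · rw [← h3]
        exact mul_mem (mul_mem (mem_sup_right h2) (mem_sup_left h1)) (inv_mem (mem_sup_right h2))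
  rw [(key u c).1, (key u' c').1, ← hψ _ (key u c).2 _ (key u' c').2, qq_mul, ← ex_add, (key (u + u') _).1]

/-- multiplicativity for pairs in a common plane -/
lemma kap_mul1 (g : symplecticGroup (Fin (m + 1)) F) (u u' : Fin 1 ⊕ Fin 1 → F) {w w' : Fin (m + 1) ⊕ Fin (m + 1) → F}
    (hw : g ⋆ ex (fun _ : Fin 1 => (0 : Fin (m + 1))) u = w) (hw' : g ⋆ ex (fun _ : Fin 1 => (0 : Fin (m + 1))) u' = w') (c c' : F) :
    kap f Φ w c * kap f Φ w' c' = kap f Φ (w + w') (c + c' + sf w w') := by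
  subst hw hw'
  have h := kap_mul0 A Φ hΦ u u' c c'
  rw [← kap_conj A Φ hΦ, ← kap_conj A Φ hΦ g _ c', ← st_add, ← kap_conj A Φ hΦ, sf_st, ← h]; group

/-- **multiplicativity** -/
theorem kap_mul (hF : ∃ a : F, a ≠ 0 ∧ a ≠ 1) (w w' : Fin (m + 1) ⊕ Fin (m + 1) → F) (c c' : F) :
    kap f Φ w c * kap f Φ w' c' = kap f Φ (w + w') (c + c' + sf w w') := by
  have e1 : ∀ a : F, ex (fun _ : Fin 1 => (0 : Fin (m + 1))) (a • ee (F := F) (Sum.inl 0)) = a • ee (oo m) := by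
    intro a; rw [ex_smul, ex_ee]; rfl
  have e2 : ∀ a : F, ex (fun _ : Fin 1 => (0 : Fin (m + 1))) (a • ee (F := F) (Sum.inr 0)) = a • ee (-oo m) := by
    intro a; rw [ex_smul, ex_ee]; rfl
  have H1 : ∀ {w w' : Fin (m + 1) ⊕ Fin (m + 1) → F} (c c' : F), sf w w' ≠ 0 →
      kap f Φ w c * kap f Φ w' c' = kap f Φ (w + w') (c + c' + sf w w') := by
    intro w w' c c' h
    obtain ⟨g, h1, h2⟩ := trans_p h
    exact kap_mul1 A Φ hΦ g ((1 : F) • ee (Sum.inl 0)) (sf w w' • ee (Sum.inr 0)) (by rw [e1, one_smul, h1])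
      (by rw [e2, h2]) c c'
  by_cases hw : w = 0
  · obtain ⟨g, a, h⟩ := exists_rep w'
    refine kap_mul1 A Φ hΦ g 0 (a • ee (Sum.inl 0)) (by rw [ex_zero, st_zero, hw]) (by rw [e1, h]) c c'
  by_cases hd : ∃ a : F, w' = a • w
  · obtain ⟨a, ha⟩ := hd
    obtain ⟨g, hg⟩ := trans_v (ee_ne (F := F) (oo m)) hw
    exact kap_mul1 A Φ hΦ g ((1 : F) • ee (Sum.inl 0)) (a • ee (Sum.inl 0)) (by rw [e1, one_smul, hg])
      (by rw [e1, st_smul, hg, ha]) c c'
  by_cases hs : sf w w' = 0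
  swap
  · exact H1 c c' hs
  obtain ⟨α, hα0, hα1⟩ := hF
  obtain ⟨z, hz1, hz2⟩ := exists_perp_not_perp hw hd
  obtain ⟨y0, hy0⟩ := exists_sf_ne_zero hw
  have hy0' : sf w y0 ≠ 0 := by rw [sf_swap]; simpa using hy0
  obtain ⟨y, k1, k2⟩ : ∃ y, sf w y = 1 ∧ sf w' y = -α := by
    refine ⟨(sf w y0)⁻¹ • y0 + ((-α - (sf w y0)⁻¹ * sf w' y0) * (sf w' z)⁻¹) • z, ?_, ?_⟩
    · rw [sf_add_right, sf_smul_right, sf_smul_right, hz1]; field_simp; ring
    · rw [sf_add_right, sf_smul_right, sf_smul_right]; field_simp; ring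
  have k3 : sf y w' = α := by rw [sf_swap, k2, neg_neg]
  have f1 : kap f Φ w' c' = kap f Φ y 0 * kap f Φ (w' - y) (c' - sf y w') := by
    have h4 : sf y (w' - y) = α := by rw [sf_sub_right, sf_self, k3, sub_zero]
    rw [H1 0 (c' - sf y w') (by rw [h4]; exact hα0), h4, k3]
    congr 1
    · abel
    · ring
  have f2 : kap f Φ w c * kap f Φ y 0 = kap f Φ (w + y) (c + 0 + sf w y) := H1 c 0 (by rw [k1]; exact one_ne_zero)
  have h5 : sf (w + y) (w' - y) = α - 1 := by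
    rw [sf_add_left, sf_sub_right, sf_sub_right, sf_self, hs, k1, k3]; ring
  rw [f1, ← mul_assoc, f2, H1 _ _ (by rw [h5]; exact sub_ne_zero.2 hα1), h5, k1, k3, hs]
  congr 1
  · abel
  · ring

/-- the extended map -/
noncomputable def phi (f : symplecticGroup (Fin (m + 2)) F → H) (Φ : symplecticGroup (Fin (m + 1)) F →* H)
    (p : symplecticGroup (Fin (m + 2)) F) : H :=
  open Classical in
  if h : ∃ t : (Fin (m + 1) ⊕ Fin (m + 1) → F) × F × symplecticGroup (Fin (m + 1)) F, p = qq t.1 t.2.1 * ios (m + 1) t.2.2 then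
      kap f Φ h.choose.1 h.choose.2.1 * Φ h.choose.2.2 else 1

omit A hΦ in
lemma phi_eq (w : Fin (m + 1) ⊕ Fin (m + 1) → F) (c : F) (g : symplecticGroup (Fin (m + 1)) F) :
    phi f Φ (qq w c * ios (m + 1) g) = kap f Φ w c * Φ g := by
  have h : ∃ t : (Fin (m + 1) ⊕ Fin (m + 1) → F) × F × symplecticGroup (Fin (m + 1)) F,
      qq w c * ios (m + 1) g = qq t.1 t.2.1 * ios (m + 1) t.2.2 := ⟨(w, c, g), rfl⟩
  obtain ⟨e1, e2, e3⟩ := dec_uniq h.choose_spec
  unfold phi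
  rw [dif_pos h, ← e1, ← e2, ← e3]

lemma phi_mul (hF : ∃ a : F, a ≠ 0 ∧ a ≠ 1) : MulOn (Fx F {oo (m + 1)}) (phi f Φ) := by
  intro p hp p' hp'
  obtain ⟨w, c, g, rfl⟩ := dec (hp _ rfl)
  obtain ⟨w', c', g', rfl⟩ := dec (hp' _ rfl)
  have e1 : qq w c * ios (m + 1) g * (qq w' c' * ios (m + 1) g') =
      qq (w + g ⋆ w') (c + c' + sf w (g ⋆ w')) * ios (m + 1) (g * g') := by
    rw [← qq_mul, ← ios_qq, map_mul]; group
  rw [e1, phi_eq, phi_eq, phi_eq, ← kap_mul A Φ hΦ hF, ← kap_conj A Φ hΦ, map_mul]; group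

lemma kap_zero (c : F) : kap f Φ 0 c = f (qq 0 c) := by
  have e : (0 : F) • ee (F := F) (oo m) = 0 := zero_smul _ _
  rw [kap_eq A Φ hΦ (g := 1) (a := 0) (by rw [e, st_zero]) c, map_one, e, one_mul, inv_one, mul_one]

lemma f_one : f 1 = 1 := (A.mulOn (Fx_SS_mem 0)).one

lemma phi_ios (g : symplecticGroup (Fin (m + 1)) F) : phi f Φ (ios (m + 1) g) = Φ g := by
  have := phi_eq (f := f) Φ 0 0 g
  rw [qq_zero, one_mul, kap_zero A Φ hΦ, qq_zero, f_one A Φ hΦ, one_mul] at this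
  exact this

omit A hΦ in
lemma M_struct0 {x : symplecticGroup (Fin (m + 2)) F} (hx : x ∈ Fx F (MS (m + 2) 0)) :
    ∃ a b c : F, x = qq (0 : Fin (m + 1) ⊕ Fin (m + 1) → F) a * qq (b • ee (oo m)) 0 * ios (m + 1) (ye (oo m) (oo m) c) := by
  have h01 : 0 + 1 < m + 2 := by omega
  obtain ⟨a, b, c, rfl⟩ := M_struct h01 hx
  refine ⟨a, b, c, ?_⟩
  rw [qq_zero', qq_single, io_ye _ oo_ne]
  rfl

lemma phi_M (hF : ∃ a : F, a ≠ 0 ∧ a ≠ 1) {x : symplecticGroup (Fin (m + 2)) F} (hx : x ∈ Fx F (MS (m + 2) 0)) :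
    phi f Φ x = f x := by
  have h01 : 0 + 1 < m + 2 := by omega
  have hfM := A.mulOn (Fx_MS_mem h01)
  have hmul := phi_mul A Φ hΦ hF
  obtain ⟨a, b, c, rfl⟩ := M_struct0 hx
  have m1 : qq (0 : Fin (m + 1) ⊕ Fin (m + 1) → F) a ∈ Fx F (MS (m + 2) 0) := by
    have := qq_mem_M (m := m) 0 a
    rwa [zero_smul] at this
  have m2 := qq_mem_M (m := m) b 0
  have m3 : ios (m + 1) (ye (oo m) (oo m) c) ∈ Fx F (MS (m + 2) 0) := by
    have := mul_mem (inv_mem (mul_mem m1 m2)) hx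
    rwa [inv_mul_cancel_left] at this
  have hle : Fx F (MS (m + 2) 0) ≤ Fx F {oo (m + 1)} := by
    intro g hg
    rintro p rfl
    exact hg _ (by intro k e; cases e)
  have t1 : phi f Φ (qq (0 : Fin (m + 1) ⊕ Fin (m + 1) → F) a) = f (qq 0 a) := by
    have := phi_eq (f := f) Φ 0 a 1
    rw [map_one, mul_one, map_one, mul_one, kap_zero A Φ hΦ] at this
    exact this
  have t2 : phi f Φ (qq (b • ee (oo m)) 0) = f (qq (b • ee (oo m)) 0) := by
    have := phi_eq (f := f) Φ (b • ee (oo m)) 0 1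
    rw [map_one, mul_one, map_one, mul_one, kap_eq A Φ hΦ (g := 1) (a := b) (st_one _) 0, map_one, one_mul, inv_one,
      mul_one] at this
    exact this
  have t3 : phi f Φ (ios (m + 1) (ye (oo m) (oo m) c)) = f (ios (m + 1) (ye (oo m) (oo m) c)) := by
    rw [phi_ios A Φ hΦ]
    obtain ⟨j, -, hj⟩ := long_mem (F := F) (oo m)
    exact hΦ _ (Fx_SS_mem j) _ (hj c)
  rw [hmul _ (hle (mul_mem m1 m2)) _ (hle m3), hmul _ (hle m1) _ (hle m2), hfM _ (mul_mem m1 m2) _ m3,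
    hfM _ m1 _ m2, t1, t2, t3]

end kap

end Cfsg.Agent.H93.SpC
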