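import Cfsg.Agent.H93.SpC.Emb

set_option autoImplicit false
set_option linter.unusedSectionVars false

/-!
The stabilizer of a vector in the symplectic group.
-/

namespace Cfsg.Agent.H93.SpC

open Matrix Subgroup
open Cfsg.Agent.ClassSp Cfsg.Agent.Stb

attribute [local instance] sumNeg

variable {F : Type*} [Field F] {m : ℕ}

/-- the first index -/
def oo (m : ℕ) : Fin (m + 1) ⊕ Fin (m + 1) := Sum.inl 0

/-- the embedding of the smaller symplectic group -/
noncomputable abbrev ios (m : ℕ) : symplecticGroup (Fin m) F →* symplecticGroup (Fin (m + 1)) F :=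
  io Fin.succ (Fin.succ_injective m)

lemma oo_not_range : oo m ∉ Set.range (sm (Fin.succ (n := m))) := by
  rintro ⟨q | q, hq⟩
  · have : Fin.succ q = 0 := Sum.inl.inj hq
    exact Fin.succ_ne_zero q this
  · cases hq

lemma noo_not_range : -oo m ∉ Set.range (sm (Fin.succ (n := m))) := neg_not_range oo_not_range

lemma oo_ne : oo m ≠ -oo m := Stb.ne' (swap_ne' (l := Fin (m + 1))) (oo m)

lemma ss_ne_oo (q : Fin m ⊕ Fin m) : sm Fin.succ q ≠ oo m := fun e => oo_not_range ⟨q, e⟩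
lemma ss_ne_noo (q : Fin m ⊕ Fin m) : sm Fin.succ q ≠ -oo m := fun e => noo_not_range ⟨q, e⟩

lemma tri (p : Fin (m + 1) ⊕ Fin (m + 1)) : p = oo m ∨ p = -oo m ∨ ∃ q, p = sm Fin.succ q := by
  rcases p with p | p
  · refine Fin.cases ?_ (fun q => ?_) p
    · left; rfl
    · right; right; exact ⟨Sum.inl q, rfl⟩
  · refine Fin.cases ?_ (fun q => ?_) p
    · right; left; rfl
    · right; right; exact ⟨Sum.inr q, rfl⟩

lemma eps_oo : eps F (oo m) = 1 := rfl

lemma sf_ee_es {p : Fin (m + 1) ⊕ Fin (m + 1)} (hp : p ∉ Set.range (sm (Fin.succ (n := m)))) (w : Fin m ⊕ Fin m → F) :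
    sf (ee p) (ex Fin.succ w) = 0 := by
  rw [sf_ee, ex_of_not_range _ (neg_not_range hp), mul_zero]

lemma sf_es_ee {p : Fin (m + 1) ⊕ Fin (m + 1)} (hp : p ∉ Set.range (sm (Fin.succ (n := m)))) (w : Fin m ⊕ Fin m → F) :
    sf (ex Fin.succ w) (ee p) = 0 := by
  rw [sf_swap, sf_ee_es hp, neg_zero]

/-- coordinates -/
lemma split (v : Fin (m + 1) ⊕ Fin (m + 1) → F) :
    v = v (oo m) • ee (oo m) + v (-oo m) • ee (-oo m) + ex Fin.succ (v ∘ sm Fin.succ) := by
  funext p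
  simp only [Pi.add_apply, Pi.smul_apply, smul_eq_mul]
  rcases tri p with rfl | rfl | ⟨q, rfl⟩
  · rw [ee_self, ee_of_ne oo_ne, ex_of_not_range _ oo_not_range]; ring
  · rw [ee_self, ee_of_ne oo_ne.symm, ex_of_not_range _ noo_not_range]; ring
  · rw [ee_of_ne (ss_ne_oo q), ee_of_ne (ss_ne_noo q), ex_apply (Fin.succ_injective m)]
    simp

/-- the linear map -/
noncomputable def qL (w : Fin m ⊕ Fin m → F) (c : F) :
    (Fin (m + 1) ⊕ Fin (m + 1) → F) →ₗ[F] (Fin (m + 1) ⊕ Fin (m + 1) → F) where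
  toFun v := v + (sf (ex Fin.succ w) v + c * sf (ee (oo m)) v) • ee (oo m) + sf (ee (oo m)) v • ex Fin.succ w
  map_add' u v := by rw [sf_add_right, sf_add_right]; module
  map_smul' a v := by rw [sf_smul_right, sf_smul_right]; simp only [RingHom.id_apply]; module

lemma qL_isom (w : Fin m ⊕ Fin m → F) (c : F) (x y : Fin (m + 1) ⊕ Fin (m + 1) → F) :
    sf (qL w c x) (qL w c y) = sf x y := by
  change sf (x + (sf (ex Fin.succ w) x + c * sf (ee (oo m)) x) • ee (oo m) + sf (ee (oo m)) x • ex Fin.succ w)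
    (y + (sf (ex Fin.succ w) y + c * sf (ee (oo m)) y) • ee (oo m) + sf (ee (oo m)) y • ex Fin.succ w) = _
  simp only [sf_add_left, sf_add_right, sf_smul_left, sf_smul_right, sf_self, sf_ee_es oo_not_range, sf_es_ee oo_not_range]
  rw [sf_swap x (ee (oo m)), sf_swap x (ex Fin.succ w)]
  ring

/-- the unipotent radical -/
noncomputable def qq (w : Fin m ⊕ Fin m → F) (c : F) : symplecticGroup (Fin (m + 1)) F := ofLin (qL w c) (qL_isom w c)

lemma qq_st (w : Fin m ⊕ Fin m → F) (c : F) (v : Fin (m + 1) ⊕ Fin (m + 1) → F) :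
    qq w c ⋆ v = v + (sf (ex Fin.succ w) v + c * sf (ee (oo m)) v) • ee (oo m) + sf (ee (oo m)) v • ex Fin.succ w := by
  rw [qq, ofLin_st]; rfl

lemma qq_mul (w w' : Fin m ⊕ Fin m → F) (c c' : F) : qq w c * qq w' c' = qq (w + w') (c + c' + sf w w') := by
  apply ext_st; intro v
  rw [st_mul, qq_st, qq_st, qq_st]
  have e1 : sf (ex Fin.succ w) (ex Fin.succ w') = sf w w' := sf_ex_ex (Fin.succ_injective m) w w'
  have e2 : ex Fin.succ (w + w') = ex Fin.succ w + ex Fin.succ w' := ex_add _ _ _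
  rw [e2]
  simp only [sf_add_left, sf_add_right, sf_smul_right, sf_self, sf_ee_es oo_not_range, sf_es_ee oo_not_range, e1]
  module

lemma qq_zero : qq (0 : Fin m ⊕ Fin m → F) 0 = 1 := by
  apply ext_st; intro v
  rw [qq_st, st_one, ex_zero, sf_zero_left]; module

lemma qq_zero' (c : F) : qq (0 : Fin m ⊕ Fin m → F) c = ye (oo m) (oo m) c := by
  apply ext_st; intro v
  rw [qq_st, st_eq, ye_long, ex_zero, sf_zero_left]; module

lemma qq_single (q : Fin m ⊕ Fin m) (a : F) : qq (a • ee q) 0 = ye (oo m) (sm Fin.succ q) a := by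
  have h1 : oo m ≠ -sm Fin.succ q := fun e => ss_ne_noo q (by rw [e, neg_neg])
  apply ext_st; intro v
  rw [qq_st, st_eq, ye_short h1 (ss_ne_oo q).symm, ex_smul, ex_ee, sf_smul_left]; module

lemma ios_qq (g : symplecticGroup (Fin m) F) (w : Fin m ⊕ Fin m → F) (c : F) :
    ios m g * qq w c * (ios m g)⁻¹ = qq (g ⋆ w) c := by
  apply ext_st; intro v
  rw [st_mul, st_mul, qq_st, qq_st, st_add, st_add, st_smul, st_smul, st_inv', io_fix _ g oo_not_range, io_ex]
  have e1 : sf (ee (F := F) (oo m)) ((ios m g)⁻¹ ⋆ v) = sf (ee (oo m)) v := by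
    rw [← sf_st (ios m g), io_fix _ g oo_not_range, st_inv']
  have e2 : sf (ex Fin.succ w) ((ios m g)⁻¹ ⋆ v) = sf (ex Fin.succ (g ⋆ w)) v := by
    rw [← sf_st (ios m g), io_ex, st_inv']
  rw [e1, e2]

lemma qq_oo (w : Fin m ⊕ Fin m → F) (c : F) : qq w c ⋆ ee (oo m) = ee (oo m) := by
  rw [qq_st, sf_self, sf_es_ee oo_not_range]; module

lemma qq_noo (w : Fin m ⊕ Fin m → F) (c : F) : qq w c ⋆ ee (-oo m) = ee (-oo m) + c • ee (oo m) + ex Fin.succ w := by
  rw [qq_st, sf_es_ee noo_not_range, sf_ee_neg, eps_oo]; module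

lemma qq_mem (w : Fin m ⊕ Fin m → F) (c : F) : qq w c ∈ Fx F {oo m} := by
  rintro p rfl; exact qq_oo w c

lemma qq_inv (w : Fin m ⊕ Fin m → F) (c : F) : (qq w c)⁻¹ = qq (-w) (-c) := by
  rw [inv_eq_iff_mul_eq_one, qq_mul, sf_neg_right, sf_self]
  have : c + -c + -(0 : F) = 0 := by ring
  rw [this, add_neg_cancel, qq_zero]

/-- the decomposition of the vector stabilizer -/
lemma dec {p : symplecticGroup (Fin (m + 1)) F} (hp : p ⋆ ee (oo m) = ee (oo m)) :
    ∃ w c g, p = qq w c * ios m g := by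
  set u := p ⋆ ee (-oo m) with hu
  have h1 : u (-oo m) = 1 := by
    have h2 : sf (ee (oo m)) u = 1 := by
      have h3 : sf (ee (oo m)) u = sf (p ⋆ ee (oo m)) (p ⋆ ee (-oo m)) := by rw [hp]
      rw [h3, sf_st, sf_ee_neg, eps_oo]
    rwa [sf_ee, eps_oo, one_mul] at h2
  set w := u ∘ sm Fin.succ with hw
  set c := u (oo m) with hc
  have h2 : u = ee (-oo m) + c • ee (oo m) + ex Fin.succ w := by
    conv_lhs => rw [split u, h1]
    rw [one_smul]
    abel
  have h3 : qq w c ⋆ ee (-oo m) = u := by rw [qq_noo, h2]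
  obtain ⟨g, hg⟩ := exists_io (Fin.succ_injective m) (g := (qq w c)⁻¹ * p) (by
    intro q hq
    rw [st_mul]
    rcases tri q with rfl | rfl | ⟨q', rfl⟩
    · rw [hp]; exact st_eq_inv (qq_oo w c)
    · exact st_eq_inv h3
    · exact absurd ⟨q', rfl⟩ hq)
  exact ⟨w, c, g, by rw [hg]; group⟩

lemma dec_uniq {w w' : Fin m ⊕ Fin m → F} {c c' : F} {g g' : symplecticGroup (Fin m) F}
    (h : qq w c * ios m g = qq w' c' * ios m g') : w = w' ∧ c = c' ∧ g = g' := by
  have h1 : (qq w c * ios m g) ⋆ ee (-oo m) = (qq w' c' * ios m g') ⋆ ee (-oo m) := by rw [h]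
  rw [st_mul, st_mul, io_fix _ _ noo_not_range, io_fix _ _ noo_not_range, qq_noo, qq_noo] at h1
  have hc : c = c' := by
    have h2 := congrFun h1 (oo m)
    simp only [Pi.add_apply, Pi.smul_apply, smul_eq_mul, ee_self, ex_of_not_range _ oo_not_range, mul_one, add_zero] at h2
    exact add_left_cancel h2
  subst hc
  have hw : w = w' := ex_injective (Fin.succ_injective m) (add_left_cancel h1)
  subst hw
  exact ⟨rfl, rfl, io_injective (Fin.succ_injective m) (mul_left_cancel h)⟩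

/-- the unipotent radical is generated by its root elements -/
lemma qq_gen {K : Subgroup (symplecticGroup (Fin (m + 1)) F)} (h1 : ∀ a, ye (oo m) (oo m) a ∈ K)
    (h2 : ∀ q a, ye (oo m) (sm Fin.succ q) a ∈ K) (w : Fin m ⊕ Fin m → F) (c : F) : qq w c ∈ K := by
  have key : ∀ s : Finset (Fin m ⊕ Fin m), ∃ d, qq (∑ q ∈ s, w q • ee q) d ∈ K := by
    intro s
    induction s using Finset.cons_induction with
    | empty => exact ⟨0, by rw [Finset.sum_empty, qq_zero]; exact one_mem _⟩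
    | cons q s hq ih =>
      obtain ⟨d, hd⟩ := ih
      rw [Finset.sum_cons]
      exact ⟨_, by rw [← qq_mul (w q • ee q) _ 0 d, qq_single]; exact mul_mem (h2 q (w q)) hd⟩
  obtain ⟨d, hd⟩ := key Finset.univ
  have e1 : ∑ q, w q • ee (F := F) q = w := by
    funext p
    rw [Finset.sum_apply, Finset.sum_eq_single p]
    · rw [Pi.smul_apply, ee_self, smul_eq_mul, mul_one]
    · intro b _ hb; rw [Pi.smul_apply, ee_of_ne (Ne.symm hb), smul_zero]
    · intro h; exact absurd (Finset.mem_univ _) h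
  rw [e1] at hd
  have e2 : qq w c = qq w d * ye (oo m) (oo m) (c - d) := by
    rw [← qq_zero', qq_mul, add_zero, sf_zero_right]
    congr 1; ring
  rw [e2]
  exact mul_mem hd (h1 _)

/-- generation in rank one -/
lemma yeG_one : yeG (Fin 1) F = ⊤ := by
  -- transitivity on nonzero vectors
  have hd1 : (Sum.inl 0 : Fin 1 ⊕ Fin 1) ≠ -Sum.inl 0 := Stb.ne' (swap_ne' (l := Fin 1)) _
  have hd2 : (Sum.inr 0 : Fin 1 ⊕ Fin 1) ≠ -Sum.inr 0 := Stb.ne' (swap_ne' (l := Fin 1)) _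
  have hn1 : -(Sum.inl 0 : Fin 1 ⊕ Fin 1) = Sum.inr 0 := rfl
  have hn2 : -(Sum.inr 0 : Fin 1 ⊕ Fin 1) = Sum.inl 0 := rfl
  have ap1 : ∀ (a : F) (v : Fin 1 ⊕ Fin 1 → F), (ye (Sum.inl 0) (Sum.inl 0) a ⋆ v) (Sum.inl 0) = v (Sum.inl 0) + a * v (Sum.inr 0) := by
    intro a v
    rw [st_eq, ye_apply hd1, if_pos rfl, if_neg (fun e => e.2 rfl), hn1]
    change _ + a * 1 * _ + 0 = _
    ring
  have ap2 : ∀ (a : F) (v : Fin 1 ⊕ Fin 1 → F), (ye (Sum.inl 0) (Sum.inl 0) a ⋆ v) (Sum.inr 0) = v (Sum.inr 0) := by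
    intro a v
    rw [st_eq, ye_apply hd1, if_neg (by simp), if_neg (fun e => e.2 rfl)]
    ring
  have ap3 : ∀ (a : F) (v : Fin 1 ⊕ Fin 1 → F), (ye (Sum.inr 0) (Sum.inr 0) a ⋆ v) (Sum.inr 0) = v (Sum.inr 0) - a * v (Sum.inl 0) := by
    intro a v
    rw [st_eq, ye_apply hd2, if_pos rfl, if_neg (fun e => e.2 rfl), hn2]
    change _ + a * (-1) * _ + 0 = _
    ring
  have ap4 : ∀ (a : F) (v : Fin 1 ⊕ Fin 1 → F), (ye (Sum.inr 0) (Sum.inr 0) a ⋆ v) (Sum.inl 0) = v (Sum.inl 0) := by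
    intro a v
    rw [st_eq, ye_apply hd2, if_neg (by simp), if_neg (fun e => e.2 rfl)]
    ring
  have ext1 : ∀ {v w : Fin 1 ⊕ Fin 1 → F}, v (Sum.inl 0) = w (Sum.inl 0) → v (Sum.inr 0) = w (Sum.inr 0) → v = w := by
    intro v w h1 h2
    funext p
    rcases p with p | p
    · rw [Subsingleton.elim p 0]; exact h1
    · rw [Subsingleton.elim p 0]; exact h2
  have m1 : ∀ a : F, ye (Sum.inl 0) (Sum.inl 0) a ∈ yeG (Fin 1) F := fun a => ye_mem hd1 a
  have m2 : ∀ a : F, ye (Sum.inr 0) (Sum.inr 0) a ∈ yeG (Fin 1) F := fun a => ye_mem hd2 a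
  -- vectors with nonzero second coordinate
  have step1 : ∀ v : Fin 1 ⊕ Fin 1 → F, v (Sum.inr 0) ≠ 0 → ∃ g ∈ yeG (Fin 1) F, g ⋆ v = ee (Sum.inl 0) := by
    intro v hv
    refine ⟨ye (Sum.inr 0) (Sum.inr 0) (v (Sum.inr 0)) * ye (Sum.inl 0) (Sum.inl 0) ((1 - v (Sum.inl 0)) / v (Sum.inr 0)),
      mul_mem (m2 _) (m1 _), ?_⟩
    have e1 : (ye (Sum.inl 0) (Sum.inl 0) ((1 - v (Sum.inl 0)) / v (Sum.inr 0)) ⋆ v) (Sum.inl 0) = 1 := by
      rw [ap1]; field_simp; ring
    apply ext1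
    · rw [st_mul, ap4, e1, ee_self]
    · rw [st_mul, ap3, e1, ap2, ee_of_ne (by simp)]; ring
  have step2 : ∀ v : Fin 1 ⊕ Fin 1 → F, v ≠ 0 → ∃ g ∈ yeG (Fin 1) F, g ⋆ v = ee (Sum.inl 0) := by
    intro v hv
    by_cases h : v (Sum.inr 0) = 0
    · have h' : v (Sum.inl 0) ≠ 0 := fun e => hv (ext1 e h)
      obtain ⟨g, hg, e⟩ := step1 (ye (Sum.inr 0) (Sum.inr 0) 1 ⋆ v) (by rw [ap3, h]; simpa using h')
      exact ⟨g * ye (Sum.inr 0) (Sum.inr 0) 1, mul_mem hg (m2 _), by rw [st_mul, e]⟩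
    · exact step1 v h
  have h1 : tvGroup (Fin 1) F ≤ yeG (Fin 1) F := by
    unfold tvGroup
    rw [closure_le]
    rintro _ ⟨w, c, rfl⟩
    by_cases hw : w = 0
    · have : tv w c = 1 := by
        apply ext_vec; intro v
        rw [tv_mulVec, one_mulVec', hw]; simp
      rw [this]; exact one_mem _
    · obtain ⟨g, hg, hgw⟩ := step2 w hw
      have e1 : tv w c = g⁻¹ * tv (ee (Sum.inl 0)) c * g⁻¹⁻¹ := by
        rw [tv_conj]
        have : ((g⁻¹ : symplecticGroup (Fin 1) F) : Matrix (Fin 1 ⊕ Fin 1) (Fin 1 ⊕ Fin 1) F) *ᵥ ee (Sum.inl 0) = w :=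
          st_eq_inv hgw
        rw [this]
      have e2 : tv (ee (Sum.inl 0)) c = ye (Sum.inl 0 : Fin 1 ⊕ Fin 1) (Sum.inl 0) (-c) := by
        apply ext_vec; intro v
        rw [tv_mulVec, ye_long, sf_swap v]; module
      rw [e1, e2]
      exact mul_mem (mul_mem (inv_mem hg) (m1 _)) (inv_mem (inv_mem hg))
  rw [tvGroup_eq_top] at h1
  exact top_le_iff.1 h1

/-- generation by root elements, all ranks -/
theorem yeG_top (m : ℕ) : yeG (Fin m) F = ⊤ := by
  rcases Nat.lt_or_ge m 2 with h | h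
  · interval_cases m
    · rw [← top_le_iff]
      intro g _
      have : g = 1 := by
        apply ext_st; intro v
        funext p
        rcases p with p | p <;> exact p.elim0
      rw [this]; exact one_mem _
    · exact yeG_one
  · exact yeG_eq_top (by simpa using h)

/-- generation of the vector stabilizer by root elements -/
theorem Fx_oo_le {K : Subgroup (symplecticGroup (Fin (m + 1)) F)}
    (h : ∀ i j, i ≠ -j → i ≠ -oo m → j ≠ -oo m → ∀ a, ye i j a ∈ K) : Fx F {oo m} ≤ K := by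
  intro p hp
  obtain ⟨w, c, g, rfl⟩ := dec (hp _ rfl)
  refine mul_mem (qq_gen (fun a => h _ _ oo_ne oo_ne oo_ne a) (fun q a => ?_) w c) ?_
  · exact h _ _ (fun e => ss_ne_noo q (by rw [e, neg_neg])) oo_ne (ss_ne_noo q) a
  · have : (⊤ : Subgroup (symplecticGroup (Fin m) F)) ≤ K.comap (ios m) := by
      rw [← yeG_top m]
      unfold yeG
      rw [closure_le]
      rintro _ ⟨i, j, hij, a, rfl⟩
      rw [SetLike.mem_coe, mem_comap, io_ye _ hij]
      exact h _ _ (fun e => hij (sm_inj (Fin.succ_injective m) (by rw [e, sm_neg]))) (ss_ne_noo i) (ss_ne_noo j) a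
    exact this (mem_top g)

/-- transitivity on nonzero vectors -/
lemma trans_v {l : Type*} [Fintype l] [DecidableEq l] {v w : l ⊕ l → F} (hv : v ≠ 0) (hw : w ≠ 0) :
    ∃ g : symplecticGroup l F, g ⋆ v = w := by
  obtain ⟨g, -, h⟩ := exists_mem_tvGroup hv hw
  exact ⟨g, h⟩

/-- transitivity on pairs -/
lemma trans_p {w w' : Fin (m + 1) ⊕ Fin (m + 1) → F} (h : sf w w' ≠ 0) :
    ∃ g : symplecticGroup (Fin (m + 1)) F, g ⋆ ee (oo m) = w ∧ g ⋆ (sf w w' • ee (-oo m)) = w' := by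
  obtain ⟨g, -, h1, h2⟩ := exists_mem_tvGroup_pair (u := ee (F := F) (oo m)) (v := ee (-oo m)) (u' := w)
    (v' := (sf w w')⁻¹ • w') (by rw [sf_ee_neg, eps_oo]) (by rw [sf_smul_right, inv_mul_cancel₀ h])
  refine ⟨g, h1, ?_⟩
  have h2' : g ⋆ ee (-oo m) = (sf w w')⁻¹ • w' := h2
  rw [st_smul, h2', smul_smul, mul_inv_cancel₀ h, one_smul]

end Cfsg.Agent.H93.SpC
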